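import Cfsg.Agent.Lib.Helper39.SLblk.Base

/-!
# SLblk farm, piece G2: the Gelfand-Graev cell argument (multiplicity one)
-/

set_option autoImplicit false
set_option linter.unusedSectionVars false

namespace Cfsg.Agent.Lib.Helper39.SLblk

open Cfsg Module Cfsg.Agent.Lib.Helper39.SLmin

namespace G2

variable {V : Type*} [AddCommGroup V] [Module ℂ V] [FiniteDimensional ℂ V]
variable {G : Type*} [Group G]

omit [FiniteDimensional ℂ V] in
theorem prj_apply {Γ : Type*} [Group Γ] [Fintype Γ] (ρ : Representation ℂ G V) (j : Γ →* G)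
    (μ : Γ →* ℂ) (y : V) :
    prj ρ j μ y = (Fintype.card Γ : ℂ)⁻¹ • ∑ δ : Γ, μ δ⁻¹ • ρ (j δ) y := by
  unfold prj
  simp only [LinearMap.smul_apply, LinearMap.sum_apply]

theorem prj_rho {Γ : Type*} [Group Γ] [Fintype Γ] (ρ : Representation ℂ G V) (j : Γ →* G)
    (μ : Γ →* ℂ) (γ : Γ) (y : V) : prj ρ j μ (ρ (j γ) y) = μ γ • prj ρ j μ y := by
  rw [prj_apply, prj_apply, smul_comm (μ γ)]
  congr 1
  rw [Finset.smul_sum, ← Equiv.sum_comp (Equiv.mulRight γ⁻¹)]
  apply Finset.sum_congr rfl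
  intro δ _
  simp only [Equiv.coe_mulRight]
  rw [← Module.End.mul_apply, ← map_mul, ← map_mul, inv_mul_cancel_right, smul_smul]
  congr 1
  rw [mul_inv_rev, inv_inv, map_mul]

/-- the vanishing alternative of the cell condition -/
theorem prj_eq_zero {U : Subgroup G} [Fintype U] {ψ : U →* ℂ} (ρ : Representation ℂ G V) {v : V}
    (hU : ∀ u ∈ U, ρ u v = v) {g : G} {x : U} (hx : ψ x ≠ 1) (hg : g⁻¹ * x * g ∈ U) :
    prj ρ U.subtype ψ (ρ g v) = 0 := by
  have h1 : ρ g v = ρ (U.subtype x) (ρ g v) := by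
    conv_lhs => rw [← hU _ hg]
    rw [← Module.End.mul_apply, ← Module.End.mul_apply, ← map_mul, ← map_mul]
    congr 2
    simp only [Subgroup.coe_subtype]
    group
  have h2 := prj_rho ρ U.subtype ψ x (ρ g v)
  rw [← h1] at h2
  have h3 : (1 - ψ x) • prj ρ U.subtype ψ (ρ g v) = 0 := by
    rw [sub_smul, one_smul, ← h2, sub_self]
  rcases smul_eq_zero.1 h3 with h | h
  · exact absurd (sub_eq_zero.1 h).symm hx
  · exact h

/-- the big cell -/
theorem prj_cell {U : Subgroup G} [Fintype U] {ψ : U →* ℂ} (ρ : Representation ℂ G V) {v : V}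
    {w0 b : G} {c : ℂ} (hb : ρ b v = c • v) (u : U) :
    prj ρ U.subtype ψ (ρ (u * w0 * b) v) = (c * ψ u) • prj ρ U.subtype ψ (ρ w0 v) := by
  have h1 : ρ (u * w0 * b) v = c • ρ (U.subtype u) (ρ w0 v) := by
    rw [map_mul, map_mul, Module.End.mul_apply, Module.End.mul_apply, hb, map_smul, map_smul]
    rfl
  rw [h1, map_smul, prj_rho, smul_smul]

end G2

section generic

variable {V : Type*} [AddCommGroup V] [Module ℂ V] [FiniteDimensional ℂ V]
variable {G : Type*} [Group G]

/-- [G2a] -/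
theorem prj_orbit {U B : Subgroup G} [Fintype U] {w0 : G} {ψ : U →* ℂ} (hcell : Cell U B w0 ψ)
    (ρ : Representation ℂ G V) {v : V} (hU : ∀ u ∈ U, ρ u v = v)
    (hB : ∀ b ∈ B, ∃ c : ℂ, ρ b v = c • v) (g : G) :
    ∃ c : ℂ, prj ρ U.subtype ψ (ρ g v) = c • prj ρ U.subtype ψ (ρ w0 v) := by
  rcases hcell g with ⟨u, b, hb, rfl⟩ | ⟨x, hx, hg⟩
  · obtain ⟨c, hc⟩ := hB b hb
    exact ⟨_, G2.prj_cell ρ hc u⟩
  · exact ⟨0, by rw [G2.prj_eq_zero ρ hU hx hg, zero_smul]⟩

open Classical in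
/-- [G2b] -/
theorem exists_f0 {U B : Subgroup G} [Fintype U] (hUB : U ≤ B) {w0 : G} {ψ : U →* ℂ}
    (hcell : Cell U B w0 ψ) :
    ∃ f0 : G → ℂ, f0 w0 = 1 ∧ ∀ (d : ℕ) (ρ : Representation ℂ G (Fin d → ℂ)) (v : Fin d → ℂ),
      (∀ b ∈ B, ρ b v = v) → ∀ g, prj ρ U.subtype ψ (ρ g v) = f0 g • prj ρ U.subtype ψ (ρ w0 v) := by
  refine ⟨fun g => if g = w0 then 1 else
    if h : ∃ u : U, ∃ b ∈ B, g = u * w0 * b then ψ h.choose else 0, by simp, ?_⟩
  intro d ρ v hB g
  by_cases h0 : g = w0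
  · subst h0
    simp
  · simp only [h0, if_false]
    by_cases h : ∃ u : U, ∃ b ∈ B, g = u * w0 * b
    · rw [dif_pos h]
      obtain ⟨b, hb, hg⟩ := h.choose_spec
      have h1 := G2.prj_cell (ψ := ψ) (w0 := w0) ρ (c := 1) (by rw [hB b hb, one_smul]) h.choose
      rw [← hg, one_mul] at h1
      exact h1
    · rw [dif_neg h, zero_smul]
      rcases hcell g with h' | ⟨x, hx, hg⟩
      · exact absurd h' h
      · exact G2.prj_eq_zero ρ (fun u hu => hB u (hUB hu)) hx hg

/-- [G2c] -/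
theorem finrank_eig_le_one {U B : Subgroup G} [Fintype U] {w0 : G} {ψ : U →* ℂ}
    (hcell : Cell U B w0 ψ) (ρ : Representation ℂ G V) [ρ.IsIrreducible] {v : V} (hv : v ≠ 0)
    (hU : ∀ u ∈ U, ρ u v = v) (hB : ∀ b ∈ B, ∃ c : ℂ, ρ b v = c • v) :
    finrank ℂ (eig ρ U.subtype ψ) ≤ 1 := by
  -- the span of the orbit of `v` is everything
  let S : Subrepresentation ρ :=
    { toSubmodule := Submodule.span ℂ (Set.range fun g => ρ g v)
      apply_mem_toSubmodule := by
        intro g y hy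
        induction hy using Submodule.span_induction with
        | mem x hx =>
          obtain ⟨h, rfl⟩ := hx
          apply Submodule.subset_span
          exact ⟨g * h, by simp⟩
        | zero => simp
        | add x y _ _ hx hy => rw [map_add]; exact Submodule.add_mem _ hx hy
        | smul c x _ hx => rw [map_smul]; exact Submodule.smul_mem _ c hx }
  have hvS : v ∈ S.toSubmodule := Submodule.subset_span ⟨1, by simp⟩
  have hS : S = ⊤ := by
    rcases eq_bot_or_eq_top S with h | h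
    · exfalso
      apply hv
      have : v ∈ (⊥ : Subrepresentation ρ).toSubmodule := h ▸ hvS
      exact (Submodule.mem_bot ℂ).1 this
    · exact h
  have htop : ∀ y : V, y ∈ Submodule.span ℂ (Set.range fun g => ρ g v) := by
    intro y
    have : y ∈ (⊤ : Subrepresentation ρ).toSubmodule := Submodule.mem_top
    rw [← hS] at this
    exact this
  have hle : eig ρ U.subtype ψ ≤ Submodule.span ℂ {prj ρ U.subtype ψ (ρ w0 v)} := by
    intro y hy
    rw [← (isProj_prj ρ U.subtype ψ).map_id y hy]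
    have := htop y
    clear hy
    induction this using Submodule.span_induction with
    | mem x hx =>
      obtain ⟨g, rfl⟩ := hx
      obtain ⟨c, hc⟩ := prj_orbit hcell ρ hU hB g
      simp only [] at hc ⊢
      rw [hc]
      exact Submodule.smul_mem _ c (Submodule.mem_span_singleton_self _)
    | zero => simp
    | add x y _ _ hx hy => rw [map_add]; exact Submodule.add_mem _ hx hy
    | smul c x _ hx => rw [map_smul]; exact Submodule.smul_mem _ c hx
  calc finrank ℂ (eig ρ U.subtype ψ)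
      ≤ finrank ℂ (Submodule.span ℂ {prj ρ U.subtype ψ (ρ w0 v)}) := Submodule.finrank_mono hle
    _ ≤ 1 := by
        have := finrank_span_le_card (R := ℂ) ({prj ρ U.subtype ψ (ρ w0 v)} : Set V)
        simpa using this

end generic

end Cfsg.Agent.Lib.Helper39.SLblk
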