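import Cfsg.Agent.Lib.Helper39.SLblk.G2
import Cfsg.Agent.Lib.Helper81.Schur

/-!
# SLblk farm, piece G3: uniqueness of the irreducible character occurring both in `1_B^G` and in
the Gelfand-Graev character
-/

set_option autoImplicit false
set_option linter.unusedSectionVars false

namespace Cfsg.Agent.Lib.Helper39.SLblk

open Cfsg Module Cfsg.Agent.Lib.Helper39.SLmin

namespace G3

variable {V : Type*} [AddCommGroup V] [Module ℂ V] [FiniteDimensional ℂ V]
variable {G : Type*} [Group G]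

/-- the orbit of a nonzero vector spans an irreducible representation -/
theorem mem_span_orbit (ρ : Representation ℂ G V) [ρ.IsIrreducible] {v : V} (hv : v ≠ 0) (y : V) :
    y ∈ Submodule.span ℂ (Set.range fun g => ρ g v) := by
  let S : Subrepresentation ρ :=
    { toSubmodule := Submodule.span ℂ (Set.range fun g => ρ g v)
      apply_mem_toSubmodule := by
        intro g y hy
        induction hy using Submodule.span_induction with
        | mem x hx =>
          obtain ⟨h, rfl⟩ := hx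
          apply Submodule.subset_span
          exact ⟨g * h, by simp⟩
        | zero => simp
        | add x y _ _ hx hy => rw [map_add]; exact Submodule.add_mem _ hx hy
        | smul c x _ hx => rw [map_smul]; exact Submodule.smul_mem _ c hx }
  have hvS : v ∈ S.toSubmodule := Submodule.subset_span ⟨1, by simp⟩
  have hS : S = ⊤ := by
    rcases eq_bot_or_eq_top S with h | h
    · exfalso
      apply hv
      have : v ∈ (⊥ : Subrepresentation ρ).toSubmodule := h ▸ hvS
      exact (Submodule.mem_bot ℂ).1 this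
    · exact h
  have : y ∈ (⊤ : Subrepresentation ρ).toSubmodule := Submodule.mem_top
  rw [← hS] at this
  exact this

/-- a class sum acts as a scalar -/
theorem sum_smul_eq [Fintype G] (ρ : Representation ℂ G V) [ρ.IsIrreducible] (α : G → ℂ)
    (hα : ∀ g h, α (h * g * h⁻¹) = α g) :
    ∑ g, α g • ρ g = ((∑ g, α g * ρ.character g) / (finrank ℂ V : ℂ)) • LinearMap.id := by
  have h := Cfsg.Agent.Lib.Helper81.schur_scalar_trace ρ (∑ g, α g • ρ g) (by
    intro h
    rw [← Module.End.mul_eq_comp, ← Module.End.mul_eq_comp, Finset.sum_mul, Finset.mul_sum,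
      ← Equiv.sum_comp (MulAut.conj h).toEquiv]
    apply Finset.sum_congr rfl
    intro g _
    simp only [MulEquiv.toEquiv_eq_coe, EquivLike.coe_coe, MulAut.conj_apply, hα]
    rw [smul_mul_assoc, mul_smul_comm]
    congr 1
    rw [← map_mul, ← map_mul]
    congr 1
    group)
  rw [map_sum] at h
  simp only [map_smul, smul_eq_mul] at h
  exact h

theorem exists_ne_zero_of_sum_ne_zero {Γ : Type*} [Group Γ] [Fintype Γ] (ρ : Representation ℂ G V)
    (j : Γ →* G) (μ : Γ →* ℂ) (h : ∑ γ : Γ, μ γ⁻¹ * ρ.character (j γ) ≠ 0) :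
    ∃ y ∈ eig ρ j μ, y ≠ 0 := by
  have h1 := finrank_eig ρ j μ
  have hne : eig ρ j μ ≠ ⊥ := by
    intro hbot
    rw [hbot, finrank_bot, Nat.cast_zero] at h1
    have hc : (Fintype.card Γ : ℂ) ≠ 0 := by exact_mod_cast Fintype.card_ne_zero
    rcases mul_eq_zero.1 h1.symm with h2 | h2
    · exact inv_ne_zero hc h2
    · exact h h2
  exact Submodule.exists_mem_ne_zero_of_ne_bot hne

/-- the key formula: the scalar of a class sum is computed by `f0` -/
theorem key [Fintype G] {U B : Subgroup G} [Fintype U] [Fintype B] {w0 : G} {ψ : U →* ℂ}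
    {f0 : G → ℂ}
    (hf0 : ∀ (d : ℕ) (ρ : Representation ℂ G (Fin d → ℂ)) (v : Fin d → ℂ),
      (∀ b ∈ B, ρ b v = v) → ∀ g, prj ρ U.subtype ψ (ρ g v) = f0 g • prj ρ U.subtype ψ (ρ w0 v))
    {d : ℕ} (ρ : Representation ℂ G (Fin d → ℂ)) [ρ.IsIrreducible]
    (hB : ∑ b : B, ρ.character b ≠ 0) (hψ : ∑ u : U, ψ u⁻¹ * ρ.character u ≠ 0)
    (α : G → ℂ) (hα : ∀ g h, α (h * g * h⁻¹) = α g) :
    ∑ g, α g * f0 (g * w0) = (∑ g, α g * ρ.character g) / (finrank ℂ (Fin d → ℂ) : ℂ) := by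
  obtain ⟨v, hvB, hv⟩ := exists_ne_zero_of_sum_ne_zero ρ B.subtype 1 (by simpa using hB)
  obtain ⟨y, hyU, hy⟩ := exists_ne_zero_of_sum_ne_zero ρ U.subtype ψ (by simpa using hψ)
  have hvB' : ∀ b ∈ B, ρ b v = v := by
    intro b hb
    have := hvB ⟨b, hb⟩
    simpa using this
  have hf := hf0 d ρ v hvB'
  have hw : prj ρ U.subtype ψ (ρ w0 v) ≠ 0 := by
    intro hw
    apply hy
    rw [← (isProj_prj ρ U.subtype ψ).map_id y hyU]
    have := mem_span_orbit ρ hv y
    clear hyU hy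
    induction this using Submodule.span_induction with
    | mem x hx =>
      obtain ⟨g, rfl⟩ := hx
      simp only []
      rw [hf g, hw, smul_zero]
    | zero => simp
    | add x y _ _ hx hy => rw [map_add, hx, hy, add_zero]
    | smul c x _ hx => rw [map_smul, hx, smul_zero]
  have h1 := congrArg (fun L : (Fin d → ℂ) →ₗ[ℂ] (Fin d → ℂ) => prj ρ U.subtype ψ (L (ρ w0 v)))
    (sum_smul_eq ρ α hα)
  simp only [LinearMap.sum_apply, LinearMap.smul_apply, LinearMap.id_apply, map_sum,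
    map_smul] at h1
  have h2 : ∀ g, prj ρ U.subtype ψ (ρ g (ρ w0 v)) = f0 (g * w0) • prj ρ U.subtype ψ (ρ w0 v) := by
    intro g
    rw [← hf (g * w0), map_mul, Module.End.mul_apply]
  simp only [h2, smul_smul] at h1
  rw [← Finset.sum_smul] at h1
  exact smul_left_injective ℂ hw h1

end G3

section generic

variable {G : Type*} [Group G]

open Classical in
/-- [G3] -/
theorem irr_unique [Fintype G] {U B : Subgroup G} [Fintype U] [Fintype B] (hUB : U ≤ B) {w0 : G}
    {ψ : U →* ℂ} (hcell : Cell U B w0 ψ) {χ₁ χ₂ : G → ℂ} (h₁ : IsIrrCharacter G χ₁)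
    (h₂ : IsIrrCharacter G χ₂) (hB₁ : ∑ b : B, χ₁ b ≠ 0) (hB₂ : ∑ b : B, χ₂ b ≠ 0)
    (hψ₁ : ∑ u : U, ψ u⁻¹ * χ₁ u ≠ 0) (hψ₂ : ∑ u : U, ψ u⁻¹ * χ₂ u ≠ 0) : χ₁ = χ₂ := by
  obtain ⟨d₁, ρ₁, hi₁, rfl⟩ := h₁
  obtain ⟨d₂, ρ₂, hi₂, rfl⟩ := h₂
  obtain ⟨f0, -, hf0⟩ := exists_f0 hUB hcell
  have hα : ∀ g h, ρ₁.character (h * g * h⁻¹)⁻¹ = ρ₁.character g⁻¹ := by
    intro g h
    rw [show (h * g * h⁻¹)⁻¹ = h * g⁻¹ * h⁻¹ by group, Representation.char_conj]
  have k1 := G3.key hf0 ρ₁ hB₁ hψ₁ (fun g => ρ₁.character g⁻¹) hα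
  have k2 := G3.key hf0 ρ₂ hB₂ hψ₂ (fun g => ρ₁.character g⁻¹) hα
  have hcard : (Nat.card G : ℂ) ≠ 0 := by exact_mod_cast Nat.card_pos.ne'
  have : Invertible (Nat.card G : ℂ) := invertibleOfNonzero hcard
  have o1 := Representation.char_orthonormal ρ₁ ρ₁
  have o2 := Representation.char_orthonormal ρ₂ ρ₁
  rw [if_pos ⟨Representation.Equiv.refl ρ₁⟩] at o1
  by_cases hne : Nonempty (Representation.Equiv ρ₁ ρ₂)
  · obtain ⟨φ⟩ := hne
    exact Representation.char_iso φ
  · exfalso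
    rw [if_neg hne] at o2
    have s1 : ∑ g, ρ₁.character g⁻¹ * ρ₁.character g ≠ 0 := by
      intro h0
      simp only [mul_comm (ρ₁.character _⁻¹)] at h0
      rw [h0, mul_zero] at o1
      simp at o1
    have s2 : ∑ g, ρ₁.character g⁻¹ * ρ₂.character g = 0 := by
      simp only [mul_comm (ρ₁.character _⁻¹)]
      rcases mul_eq_zero.1 o2 with h | h
      · exact absurd h (inv_ne_zero hcard)
      · exact h
    rw [s2, zero_div] at k2
    rw [k2] at k1
    have hd : (finrank ℂ (Fin d₁ → ℂ) : ℂ) ≠ 0 := by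
      exact_mod_cast (Cfsg.Agent.Lib.Helper81.finrank_pos_of_irreducible ρ₁).ne'
    exact (div_ne_zero s1 hd) k1.symm

end generic

end Cfsg.Agent.Lib.Helper39.SLblk
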