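import Cfsg.Agent.Lib.Helper39.SLblk.G2

/-!
# SLblk farm, piece G4: the weight of a `U`-fixed line is invariant under simple reflections
-/

set_option autoImplicit false
set_option linter.unusedSectionVars false

namespace Cfsg.Agent.Lib.Helper39.SLblk

open Cfsg Module Cfsg.Agent.Lib.Helper39.SLmin

section generic

variable {V : Type*} [AddCommGroup V] [Module ℂ V] [FiniteDimensional ℂ V]
variable {G : Type*} [Group G]

namespace G4

/-- the projector onto the `U`-fixed vectors commutes with elements normalising `U` -/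
theorem prj_comm {U : Subgroup G} [Fintype U] (ρ : Representation ℂ G V) {t : G}
    (h1 : ∀ u ∈ U, t * u * t⁻¹ ∈ U) (h2 : ∀ u ∈ U, t⁻¹ * u * t ∈ U) (y : V) :
    prj ρ U.subtype 1 (ρ t y) = ρ t (prj ρ U.subtype 1 y) := by
  let E : U ≃ U :=
    { toFun := fun u => ⟨t * u * t⁻¹, h1 u u.2⟩
      invFun := fun u => ⟨t⁻¹ * u * t, h2 u u.2⟩
      left_inv := fun u => by apply Subtype.ext; simp only []; group
      right_inv := fun u => by apply Subtype.ext; simp only []; group }
  rw [G2.prj_apply, G2.prj_apply, map_smul]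
  congr 1
  rw [map_sum, ← Equiv.sum_comp E]
  apply Finset.sum_congr rfl
  intro u _
  simp only [MonoidHom.one_apply, one_smul, Subgroup.coe_subtype]
  rw [← Module.End.mul_apply, ← Module.End.mul_apply, ← map_mul, ← map_mul]
  congr 2
  show t * u * t⁻¹ * t = t * u
  group

end G4

open Classical in
/-- [G4] -/
theorem weight_invariant {U T : Subgroup G} [Fintype U] (hTU : ∀ t ∈ T, ∀ u ∈ U, t * u * t⁻¹ ∈ U)
    (s : G) (hs2 : s * s ∈ T)
    (hR : ∀ u ∈ U, (∃ u' ∈ U, s * u * s = u' * (s * s)) ∨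
      ∃ u₁ ∈ U, ∃ t ∈ T, ∃ u₂ ∈ U, s * u * s = u₁ * t * s * u₂)
    (ρ : Representation ℂ G V) (h1 : finrank ℂ (eig ρ U.subtype 1) = 1) {v : V} (hv : v ≠ 0)
    (hvU : v ∈ eig ρ U.subtype 1) {lam : G → ℂ} (hlam : ∀ t ∈ T, ρ t v = lam t • v)
    (t : G) (ht : t ∈ T) (ht' : s⁻¹ * t * s ∈ T) : lam (s⁻¹ * t * s) = lam t := by
  have hcard : (Fintype.card U : ℂ) ≠ 0 := by exact_mod_cast Fintype.card_ne_zero
  have hfix : ∀ u ∈ U, ρ u v = v := by
    intro u hu
    have := hvU ⟨u, hu⟩
    simpa using this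
  have heU : ∀ u ∈ U, ∀ y, prj ρ U.subtype 1 (ρ u y) = prj ρ U.subtype 1 y := by
    intro u hu y
    have := G2.prj_rho ρ U.subtype 1 ⟨u, hu⟩ y
    simpa using this
  have heT : ∀ t ∈ T, ∀ y, prj ρ U.subtype 1 (ρ t y) = ρ t (prj ρ U.subtype 1 y) := by
    intro t ht y
    apply G4.prj_comm ρ (hTU t ht)
    intro u hu
    have := hTU t⁻¹ (T.inv_mem ht) u hu
    rwa [inv_inv] at this
  have hev : prj ρ U.subtype 1 v = v := (isProj_prj ρ U.subtype 1).map_id v hvU
  -- `e (ρ s v) = c • v`
  obtain ⟨c, hc⟩ : ∃ c : ℂ, prj ρ U.subtype 1 (ρ s v) = c • v := by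
    have hmem := (isProj_prj ρ U.subtype 1).map_mem (ρ s v)
    have hv' : (⟨v, hvU⟩ : eig ρ U.subtype 1) ≠ 0 := fun h => hv (congrArg Subtype.val h)
    obtain ⟨c, hc⟩ := (finrank_eq_one_iff_of_nonzero' _ hv').1 h1 ⟨_, hmem⟩
    exact ⟨c, (congrArg Subtype.val hc).symm⟩
  have hlam0 : lam (s * s) ≠ 0 := by
    intro h0
    have h2 := hlam _ hs2
    rw [h0, zero_smul] at h2
    have h3 : ρ (s * s)⁻¹ (ρ (s * s) v) = v := by
      rw [← Module.End.mul_apply, ← map_mul, inv_mul_cancel, map_one, Module.End.one_apply]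
    rw [h2, map_zero] at h3
    exact hv h3.symm
  have hc0 : c ≠ 0 := by
    rintro rfl
    rw [zero_smul] at hc
    have hterm : ∀ u : U, prj ρ U.subtype 1 (ρ (s * u * s) v)
        = if (∃ u' ∈ U, s * (u : G) * s = u' * (s * s)) then lam (s * s) • v else 0 := by
      intro u
      split_ifs with h
      · obtain ⟨u', hu', e⟩ := h
        rw [e, map_mul, Module.End.mul_apply, heU u' hu', hlam _ hs2, map_smul, hev]
      · rcases hR u u.2 with h' | ⟨u₁, hu₁, t', ht', u₂, hu₂, e⟩
        · exact absurd h' h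
        · rw [e, map_mul, map_mul, map_mul, Module.End.mul_apply, Module.End.mul_apply,
            Module.End.mul_apply, hfix u₂ hu₂, heU u₁ hu₁, heT t' ht', hc, map_zero]
    have h0 : prj ρ U.subtype 1 (ρ s (prj ρ U.subtype 1 (ρ s v))) = 0 := by
      rw [hc, map_zero, map_zero]
    rw [G2.prj_apply ρ U.subtype 1 (ρ s v), map_smul, map_smul, map_sum, map_sum] at h0
    have h2 : ∀ u : U, prj ρ U.subtype 1 (ρ s ((1 : U →* ℂ) u⁻¹ • ρ (U.subtype u) (ρ s v)))
        = prj ρ U.subtype 1 (ρ (s * u * s) v) := by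
      intro u
      simp only [MonoidHom.one_apply, one_smul, Subgroup.coe_subtype, map_mul,
        Module.End.mul_apply]
    simp only [h2, hterm] at h0
    rw [← Finset.sum_filter, Finset.sum_const, smul_eq_zero] at h0
    rcases h0 with h0 | h0
    · exact inv_ne_zero hcard h0
    · rw [← Nat.cast_smul_eq_nsmul ℂ, smul_smul, smul_eq_zero] at h0
      rcases h0 with h0 | h0
      · rcases mul_eq_zero.1 h0 with h0 | h0
        · have hpos : 0 < (Finset.univ.filter
              (fun u : U => ∃ u' ∈ U, s * (u : G) * s = u' * (s * s))).card := by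
            apply Finset.card_pos.2
            refine ⟨1, ?_⟩
            rw [Finset.mem_filter]
            exact ⟨Finset.mem_univ _, 1, U.one_mem, by simp⟩
          have : (Finset.univ.filter
              (fun u : U => ∃ u' ∈ U, s * (u : G) * s = u' * (s * s))).card = 0 := by
            exact_mod_cast h0
          omega
        · exact hlam0 h0
      · exact hv h0
  -- compare
  have e1 : ρ t (prj ρ U.subtype 1 (ρ s v)) = (c * lam t) • v := by
    rw [hc, map_smul, hlam t ht, smul_smul]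
  have e2 : ρ t (prj ρ U.subtype 1 (ρ s v)) = (lam (s⁻¹ * t * s) * c) • v := by
    have e0 : ρ t (ρ s v) = ρ s (ρ (s⁻¹ * t * s) v) := by
      rw [← Module.End.mul_apply, ← Module.End.mul_apply, ← map_mul, ← map_mul]
      congr 2
      group
    rw [← heT t ht, e0, hlam _ ht', map_smul, map_smul, hc, smul_smul]
  rw [e1] at e2
  have e3 : (c * lam t - lam (s⁻¹ * t * s) * c) • v = 0 := by
    rw [sub_smul, e2, sub_self]
  rcases smul_eq_zero.1 e3 with h | h
  · have : c * (lam t - lam (s⁻¹ * t * s)) = 0 := by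
      rw [← h]; ring
    rcases mul_eq_zero.1 this with h | h
    · exact absurd h hc0
    · exact (sub_eq_zero.1 h).symm
  · exact absurd h hv

end generic

end Cfsg.Agent.Lib.Helper39.SLblk
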