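import Cfsg.Agent.Lib.Helper39.SLblk.Base

set_option autoImplicit false

namespace Cfsg.Agent.Lib.Helper39.SLblk

open Matrix

variable {n : ℕ} {F : Type*} [Field F]

namespace S1

/-- the sum of the entries on the first superdiagonal -/
def sup (u : Matrix (Fin n) (Fin n) F) : F :=
  ∑ i : Fin n, ∑ j : Fin n, if i.val + 1 = j.val then u i j else 0

lemma mul_super {A B : Matrix (Fin n) (Fin n) F} (hA : ∀ i j : Fin n, j < i → A i j = 0)
    (hA1 : ∀ i, A i i = 1) (hB : ∀ i j : Fin n, j < i → B i j = 0) (hB1 : ∀ i, B i i = 1)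
    (i j : Fin n) (hij : i.val + 1 = j.val) : (A * B) i j = A i j + B i j := by
  have hne : i ≠ j := by
    intro h
    rw [h] at hij
    omega
  rw [Matrix.mul_apply, Finset.sum_eq_add i j hne]
  · rw [hA1, hB1, one_mul, mul_one, add_comm]
  · intro k _ hk
    by_cases hki : k < i
    · rw [hA i k hki, zero_mul]
    · have : j < k := by
        have h1 : k.val ≠ i.val := fun h => hk.1 (Fin.ext h)
        have h2 : k.val ≠ j.val := fun h => hk.2 (Fin.ext h)
        have h3 : ¬ k.val < i.val := hki
        show j.val < k.val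
        omega
      rw [hB k j this, mul_zero]
  · intro h; exact absurd (Finset.mem_univ _) h
  · intro h; exact absurd (Finset.mem_univ _) h

lemma sup_mul {A B : Matrix (Fin n) (Fin n) F} (hA : ∀ i j : Fin n, j < i → A i j = 0)
    (hA1 : ∀ i, A i i = 1) (hB : ∀ i j : Fin n, j < i → B i j = 0) (hB1 : ∀ i, B i i = 1) :
    sup (A * B) = sup A + sup B := by
  unfold sup
  rw [← Finset.sum_add_distrib]
  apply Finset.sum_congr rfl
  intro i _
  rw [← Finset.sum_add_distrib]
  apply Finset.sum_congr rfl
  intro j _
  split_ifs with h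
  · exact mul_super hA hA1 hB hB1 i j h
  · rw [add_zero]

lemma sup_one : sup (1 : Matrix (Fin n) (Fin n) F) = 0 := by
  unfold sup
  apply Finset.sum_eq_zero
  intro i _
  apply Finset.sum_eq_zero
  intro j _
  split_ifs with h
  · apply Matrix.one_apply_ne
    intro e
    rw [e] at h
    omega
  · rfl

lemma sup_transvection (i j : Fin n) (hij : i.val + 1 = j.val) (a : F) :
    sup (Matrix.transvection i j a) = a := by
  unfold sup
  rw [Finset.sum_eq_single i, Finset.sum_eq_single j]
  · rw [if_pos hij]
    have hne : i ≠ j := by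
      intro h
      rw [h] at hij
      omega
    simp [Matrix.transvection, Matrix.one_apply_ne hne]
  · intro k _ hk
    rw [if_neg]
    intro h
    apply hk
    apply Fin.ext
    omega
  · intro h; exact absurd (Finset.mem_univ _) h
  · intro k _ hk
    apply Finset.sum_eq_zero
    intro l _
    split_ifs with h
    · have hne : k ≠ l := by
        intro e
        rw [e] at h
        omega
      simp [Matrix.transvection, Matrix.one_apply_ne hne, Matrix.single_apply, Ne.symm hk]
    · rfl
  · intro h; exact absurd (Finset.mem_univ _) h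

end S1

/-- [S1] -/
theorem exists_nondeg [Fintype F] : ∃ ψ : UU n F →* ℂ, Nondeg ψ := by
  obtain ⟨ψ0, hψ0⟩ := (AddChar.exists_apply_ne_zero (α := F) (a := 1)).2 one_ne_zero
  refine ⟨{ toFun := fun u => ψ0 (S1.sup ((u : Matrix.SpecialLinearGroup (Fin n) F) :
              Matrix (Fin n) (Fin n) F))
            map_one' := ?_
            map_mul' := ?_ }, ?_⟩
  · show ψ0 (S1.sup (((1 : Matrix.SpecialLinearGroup (Fin n) F)) : Matrix (Fin n) (Fin n) F)) = 1
    rw [Matrix.SpecialLinearGroup.coe_one, S1.sup_one, AddChar.map_zero_eq_one]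
  · intro u v
    show ψ0 (S1.sup (((u.1 * v.1 : Matrix.SpecialLinearGroup (Fin n) F)) :
      Matrix (Fin n) (Fin n) F)) = _
    rw [Matrix.SpecialLinearGroup.coe_mul, S1.sup_mul u.2.1 u.2.2 v.2.1 v.2.2,
      AddChar.map_add_eq_mul]
  · intro i j hij
    have hne : i ≠ j := by
      intro h
      rw [h] at hij
      omega
    have hlt : i < j := by
      show i.val < j.val
      omega
    refine ⟨1, ⟨⟨Matrix.transvection i j 1, Matrix.det_transvection_of_ne i j hne 1⟩, ?_⟩, rfl, ?_⟩
    · refine ⟨fun k l hkl => ?_, fun k => ?_⟩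
      · show Matrix.transvection i j (1 : F) k l = 0
        have h1 : k ≠ l := ne_of_gt hkl
        have h2 : ¬ (i = k ∧ j = l) := by
          rintro ⟨rfl, rfl⟩
          exact absurd hkl (not_lt.2 hlt.le)
        simp [Matrix.transvection, Matrix.one_apply_ne h1, Matrix.single_apply, h2]
      · show Matrix.transvection i j (1 : F) k k = 1
        have h2 : ¬ (i = k ∧ j = k) := by
          rintro ⟨rfl, h⟩
          exact hne h.symm
        simp [Matrix.transvection, Matrix.single_apply, h2]
    · show ψ0 (S1.sup (Matrix.transvection i j (1 : F))) ≠ 1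
      rw [S1.sup_transvection i j hij]
      exact hψ0

end Cfsg.Agent.Lib.Helper39.SLblk
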