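import Cfsg.Agent.Lib.Helper39.SLblk.S2a

set_option autoImplicit false

/-! # Blocks of `SL_n(q)`: piece S2b (the Gelfand-Graev cell condition) -/

namespace Cfsg.Agent.Lib.Helper39.SLblk

open Matrix

variable {n : ℕ} {F : Type*} [Field F]

namespace S2b

/-- monomial for `σ` -/
def Mono (σ : Equiv.Perm (Fin n)) (A : Matrix (Fin n) (Fin n) F) : Prop :=
  ∀ i j, i ≠ σ j → A i j = 0

theorem mono_mul {σ τ : Equiv.Perm (Fin n)} {A B : Matrix (Fin n) (Fin n) F} (hA : Mono σ A)
    (hB : Mono τ B) : Mono (σ * τ) (A * B) := by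
  intro i j hij
  rw [Matrix.mul_apply]
  apply Finset.sum_eq_zero
  intro k _
  by_cases hk : k = τ j
  · subst hk
    rw [hA i (τ j) hij, zero_mul]
  · rw [hB k j hk, mul_zero]

theorem mono_inv {σ : Equiv.Perm (Fin n)} (m : Matrix.SpecialLinearGroup (Fin n) F)
    (hm : Mono σ (m : Matrix (Fin n) (Fin n) F)) :
    Mono σ⁻¹ ((m⁻¹ : Matrix.SpecialLinearGroup (Fin n) F) : Matrix (Fin n) (Fin n) F) := by
  have key : ∀ i j, ((m⁻¹ : Matrix.SpecialLinearGroup (Fin n) F) : Matrix (Fin n) (Fin n) F) i (σ j) *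
      (m : Matrix (Fin n) (Fin n) F) (σ j) j = (1 : Matrix (Fin n) (Fin n) F) i j := by
    intro i j
    rw [← Matrix.SpecialLinearGroup.coe_one, ← inv_mul_cancel m, Matrix.SpecialLinearGroup.coe_mul,
      Matrix.mul_apply]
    symm
    apply Finset.sum_eq_single (σ j)
    · intro k _ hk
      rw [hm k j hk, mul_zero]
    · intro h
      exact absurd (Finset.mem_univ _) h
  intro i k hik
  have h1 := key i (σ⁻¹ k)
  have h2 := key (σ⁻¹ k) (σ⁻¹ k)
  have hσk : σ (σ⁻¹ k) = k := (Equiv.eq_symm_apply σ).mp rfl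
  rw [hσk] at h1 h2
  rw [Matrix.one_apply_ne hik] at h1
  rw [Matrix.one_apply_eq] at h2
  have h3 : (m : Matrix (Fin n) (Fin n) F) k (σ⁻¹ k) ≠ 0 := right_ne_zero_of_mul_eq_one h2
  exact (mul_eq_zero.1 h1).resolve_right h3

theorem eq_rev_of_adjacent (τ : Equiv.Perm (Fin n))
    (h : ∀ i j : Fin n, i.val + 1 = j.val → τ j < τ i) : τ = Fin.revPerm := by
  have h1 : ∀ d : ℕ, ∀ i j : Fin n, i.val + d + 1 = j.val → τ j < τ i := by
    intro d
    induction d with
    | zero =>
      intro i j hij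
      exact h i j (by omega)
    | succ d ih =>
      intro i j hij
      have hk : i.val + d + 1 < n := by have := j.2; omega
      exact lt_trans (h ⟨i.val + d + 1, hk⟩ j (by simp; omega)) (ih i ⟨i.val + d + 1, hk⟩ rfl)
  have hanti : StrictMono (fun i => Fin.rev (τ i)) := by
    intro i j hij
    have : τ j < τ i := h1 (j.val - i.val - 1) i j (by have : i.val < j.val := hij; omega)
    exact Fin.rev_lt_rev.2 this
  apply Equiv.ext
  intro i
  have e : Fin.rev (τ i) = i := le_antisymm hanti.apply_le hanti.le_apply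
  have := congrArg Fin.rev e
  rw [Fin.rev_rev] at this
  rw [this, Fin.revPerm_apply]

theorem exists_w0 : ∃ w0 : Matrix.SpecialLinearGroup (Fin n) F,
    Mono Fin.revPerm (w0 : Matrix (Fin n) (Fin n) F) := by
  rcases Nat.eq_zero_or_pos n with rfl | hn
  · exact ⟨1, fun i => i.elim0⟩
  · obtain ⟨ε, hε⟩ : ∃ ε : F, ε = ((Equiv.Perm.sign (Fin.revPerm : Equiv.Perm (Fin n)) : ℤ) : F) :=
      ⟨_, rfl⟩
    have hεε : ε * ε = 1 := by
      rw [hε, ← Int.cast_mul, ← Units.val_mul, Int.units_mul_self]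
      simp
    have hW : ((1 : Matrix (Fin n) (Fin n) F).submatrix id Fin.revPerm).det = ε := by
      rw [Matrix.det_permute', Matrix.det_one, mul_one, hε]
    have hD : (Matrix.diagonal (fun j : Fin n => if j = ⟨0, hn⟩ then ε else 1)).det = ε := by
      rw [Matrix.det_diagonal, Finset.prod_ite_eq']
      simp
    refine ⟨⟨(1 : Matrix (Fin n) (Fin n) F).submatrix id Fin.revPerm *
      Matrix.diagonal (fun j : Fin n => if j = ⟨0, hn⟩ then ε else 1),
      by rw [Matrix.det_mul, hW, hD, hεε]⟩, ?_⟩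
    intro i j hij
    show ((1 : Matrix (Fin n) (Fin n) F).submatrix id Fin.revPerm *
      Matrix.diagonal (fun j : Fin n => if j = ⟨0, hn⟩ then ε else 1)) i j = 0
    rw [Matrix.mul_diagonal, Matrix.submatrix_apply, id, Matrix.one_apply_ne hij, zero_mul]

theorem sandwich (A B : Matrix (Fin n) (Fin n) F) (i j k l : Fin n) (a : F) :
    (A * Matrix.single i j a * B) k l = A k i * a * B j l := by
  rw [Matrix.mul_apply, Finset.sum_eq_single j]
  · rw [Matrix.mul_single_apply_same]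
  · intro b _ hb
    rw [Matrix.mul_single_apply_of_ne _ _ _ _ _ hb, zero_mul]
  · intro h
    exact absurd (Finset.mem_univ _) h

theorem conj_mem_UU {σ : Equiv.Perm (Fin n)} (m : Matrix.SpecialLinearGroup (Fin n) F)
    (hm : Mono σ (m : Matrix (Fin n) (Fin n) F)) {i j : Fin n} (hlt : σ⁻¹ i < σ⁻¹ j) (a : F)
    (x : Matrix.SpecialLinearGroup (Fin n) F)
    (hx : (x : Matrix (Fin n) (Fin n) F) = Matrix.transvection i j a) : m⁻¹ * x * m ∈ UU n F := by
  have hm' := mono_inv m hm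
  have e : ∀ k l, ((m⁻¹ * x * m : Matrix.SpecialLinearGroup (Fin n) F) :
      Matrix (Fin n) (Fin n) F) k l = (1 : Matrix (Fin n) (Fin n) F) k l +
      ((m⁻¹ : Matrix.SpecialLinearGroup (Fin n) F) : Matrix (Fin n) (Fin n) F) k i * a *
        (m : Matrix (Fin n) (Fin n) F) j l := by
    intro k l
    rw [Matrix.SpecialLinearGroup.coe_mul, Matrix.SpecialLinearGroup.coe_mul, hx,
      Matrix.transvection, mul_add, add_mul, mul_one, ← Matrix.SpecialLinearGroup.coe_mul,
      inv_mul_cancel, Matrix.SpecialLinearGroup.coe_one, Matrix.add_apply, sandwich]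
  have hz : ∀ k l, l ≤ k → ((m⁻¹ : Matrix.SpecialLinearGroup (Fin n) F) :
      Matrix (Fin n) (Fin n) F) k i * a * (m : Matrix (Fin n) (Fin n) F) j l = 0 := by
    intro k l hlk
    by_cases h1 : k = σ⁻¹ i
    · by_cases h2 : j = σ l
      · exfalso
        have : σ⁻¹ j = l := by rw [h2]; exact Equiv.Perm.inv_eq_iff_eq.mpr rfl
        rw [this, ← h1] at hlt
        exact absurd hlt (not_lt.2 hlk)
      · rw [hm j l h2, mul_zero]
    · rw [hm' k i h1, zero_mul, zero_mul]
  refine ⟨fun k l hlk => ?_, fun k => ?_⟩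
  · rw [e, hz k l hlk.le, Matrix.one_apply_ne (ne_of_gt hlk), add_zero]
  · rw [e, hz k k le_rfl, Matrix.one_apply_eq, add_zero]

end S2b

open S2b

/-- [S2b] -/
theorem exists_cell (ψ : UU n F →* ℂ) (hψ : Nondeg ψ) :
    ∃ w0 : Matrix.SpecialLinearGroup (Fin n) F, Cell (UU n F) (BB n F) w0 ψ := by
  obtain ⟨w0, hw0⟩ := exists_w0 (n := n) (F := F)
  refine ⟨w0, fun g => ?_⟩
  obtain ⟨u, hu, m, u', hu', σ, hm, rfl⟩ := bruhat_SL g
  by_cases hσ : σ = Fin.revPerm
  · left
    have hT : w0⁻¹ * m ∈ TT n F := by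
      have h := mono_mul (mono_inv w0 hw0) (show Mono σ (m : Matrix (Fin n) (Fin n) F) from hm)
      intro i j hij
      rw [Matrix.SpecialLinearGroup.coe_mul]
      apply h i j
      rw [hσ]
      simpa using hij
    refine ⟨⟨u, hu⟩, (w0⁻¹ * m) * u', (BB n F).mul_mem (TT_le_BB hT) (UU_le_BB hu'), ?_⟩
    show u * m * u' = u * w0 * (w0⁻¹ * m * u')
    group
  · right
    have hex : ∃ i j : Fin n, i.val + 1 = j.val ∧ σ⁻¹ i < σ⁻¹ j := by
      by_contra hcon
      push Not at hcon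
      apply hσ
      have h1 : σ⁻¹ = Fin.revPerm := eq_rev_of_adjacent σ⁻¹ (fun i j hij =>
        lt_of_le_of_ne (hcon i j hij) (fun h => by
          have := σ⁻¹.injective h
          rw [this] at hij
          omega))
      rw [← inv_inv σ, h1]
      apply Equiv.ext
      intro i
      rw [Equiv.Perm.inv_eq_iff_eq]
      simp
    obtain ⟨i, j, hij, hlt⟩ := hex
    obtain ⟨a, ux, hux, hψx⟩ := hψ i j hij
    have hconj : m⁻¹ * (ux : Matrix.SpecialLinearGroup (Fin n) F) * m ∈ UU n F :=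
      conj_mem_UU m hm hlt a _ hux
    refine ⟨⟨u, hu⟩ * ux * ⟨u, hu⟩⁻¹, ?_, ?_⟩
    · rw [map_mul, map_mul, mul_comm (ψ _) (ψ ux), mul_assoc, ← map_mul, mul_inv_cancel, map_one,
        mul_one]
      exact hψx
    · have e : (u * m * u')⁻¹ * ((⟨u, hu⟩ * ux * ⟨u, hu⟩⁻¹ : UU n F) :
          Matrix.SpecialLinearGroup (Fin n) F) * (u * m * u') =
          u'⁻¹ * (m⁻¹ * (ux : Matrix.SpecialLinearGroup (Fin n) F) * m) * u' := by
        simp only [Subgroup.coe_mul, Subgroup.coe_inv]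
        group
      rw [e]
      exact (UU n F).mul_mem ((UU n F).mul_mem ((UU n F).inv_mem hu') hconj) hu'

end Cfsg.Agent.Lib.Helper39.SLblk
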