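import Cfsg.Agent.Lib.Helper39.SLblk.Base

set_option autoImplicit false

namespace Cfsg.Agent.Lib.Helper39.SLblk

open Matrix

variable {n : ℕ} {F : Type*} [Field F]

namespace S3

variable (i j : Fin n)

/-- signed swap matrices -/
def mon (δ : Fin n → F) : Matrix (Fin n) (Fin n) F :=
  Matrix.of fun k l => if Equiv.swap i j k = l then δ k else 0

lemma mon_apply (δ : Fin n → F) (k l : Fin n) :
    mon i j δ k l = if Equiv.swap i j k = l then δ k else 0 := rfl

lemma mon_mul (δ : Fin n → F) (A : Matrix (Fin n) (Fin n) F) (k l : Fin n) :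
    (mon i j δ * A) k l = δ k * A (Equiv.swap i j k) l := by
  rw [Matrix.mul_apply, Finset.sum_eq_single (Equiv.swap i j k)]
  · simp [mon]
  · intro m _ hm
    simp [mon, Ne.symm hm]
  · simp

lemma mul_mon (δ : Fin n → F) (A : Matrix (Fin n) (Fin n) F) (k l : Fin n) :
    (A * mon i j δ) k l = A k (Equiv.swap i j l) * δ (Equiv.swap i j l) := by
  rw [Matrix.mul_apply, Finset.sum_eq_single (Equiv.swap i j l)]
  · simp [mon]
  · intro m _ hm
    have : Equiv.swap i j m ≠ l := fun h => hm (by rw [← h, Equiv.swap_apply_self])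
    simp [mon, this]
  · simp

lemma det_mon (hij : i ≠ j) (δ : Fin n → F) : (mon i j δ).det = - ∏ k, δ k := by
  have : mon i j δ = Matrix.diagonal δ * (Equiv.swap i j).permMatrix F := by
    ext k l
    rw [Matrix.diagonal_mul]
    simp [mon, Equiv.Perm.permMatrix, PEquiv.toMatrix_apply]
  rw [this, det_mul, det_diagonal, det_permutation, Equiv.Perm.sign_swap hij]
  simp

/-- the sign vector -/
def dl (j : Fin n) : Fin n → F := fun k => if k = j then -1 else 1

lemma prod_dl (j : Fin n) : ∏ k, dl (F := F) j k = -1 := by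
  unfold dl
  rw [Finset.prod_ite_eq']
  simp

/-- the reflection -/
def sS (hij : i ≠ j) : Matrix.SpecialLinearGroup (Fin n) F :=
  ⟨mon i j (dl j), by rw [det_mon i j hij, prod_dl, neg_neg]⟩

/-- its inverse -/
def sS' (hij : i ≠ j) : Matrix.SpecialLinearGroup (Fin n) F :=
  ⟨mon i j (dl i), by rw [det_mon i j hij, prod_dl, neg_neg]⟩

lemma dl_mul (hij : i ≠ j) (k : Fin n) : dl (F := F) j k * dl i (Equiv.swap i j k) = 1 := by
  unfold dl
  by_cases hk : k = i
  · subst hk
    simp [hij, hij.symm]
  · by_cases hk' : k = j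
    · subst hk'
      simp
    · simp [Equiv.swap_apply_of_ne_of_ne hk hk', hk, hk']

lemma dl_mul' (hij : i ≠ j) (k : Fin n) : dl (F := F) i k * dl j (Equiv.swap i j k) = 1 := by
  unfold dl
  by_cases hk : k = i
  · subst hk
    simp
  · by_cases hk' : k = j
    · subst hk'
      simp [hij, hij.symm]
    · simp [Equiv.swap_apply_of_ne_of_ne hk hk', hk, hk']

lemma sS_mul_sS' (hij : i ≠ j) : sS (F := F) i j hij * sS' i j hij = 1 := by
  apply Subtype.ext
  ext k l
  show (mon i j (dl j) * mon i j (dl i) : Matrix (Fin n) (Fin n) F) k l =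
    (1 : Matrix (Fin n) (Fin n) F) k l
  rw [mon_mul, mon_apply, Equiv.swap_apply_self, Matrix.one_apply]
  split_ifs with h
  · exact dl_mul i j hij k
  · rw [mul_zero]

lemma sS_inv (hij : i ≠ j) : (sS (F := F) i j hij)⁻¹ = sS' i j hij :=
  inv_eq_of_mul_eq_one_right (sS_mul_sS' i j hij)

lemma sS_sq_apply (hij : i ≠ j) (k l : Fin n) :
    ((sS (F := F) i j hij * sS i j hij : Matrix.SpecialLinearGroup (Fin n) F) :
      Matrix (Fin n) (Fin n) F) k l = if k = l then dl j k * dl j (Equiv.swap i j k) else 0 := by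
  show (mon i j (dl j) * mon i j (dl j) : Matrix (Fin n) (Fin n) F) k l = _
  rw [mon_mul, mon_apply, Equiv.swap_apply_self]
  split_ifs with h
  · rfl
  · rw [mul_zero]

lemma conj_apply (hij : i ≠ j) (t : Matrix.SpecialLinearGroup (Fin n) F) (k l : Fin n) :
    (((sS (F := F) i j hij)⁻¹ * t * sS i j hij : Matrix.SpecialLinearGroup (Fin n) F) :
      Matrix (Fin n) (Fin n) F) k l =
      dl i k * (t : Matrix (Fin n) (Fin n) F) (Equiv.swap i j k) (Equiv.swap i j l) *
        dl j (Equiv.swap i j l) := by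
  rw [sS_inv]
  show (mon i j (dl i) * (t : Matrix (Fin n) (Fin n) F) * mon i j (dl j) :
    Matrix (Fin n) (Fin n) F) k l = _
  rw [mul_mon, mon_mul]

lemma conj'_apply (hij : i ≠ j) (t : Matrix.SpecialLinearGroup (Fin n) F) (k l : Fin n) :
    ((sS (F := F) i j hij * t * (sS i j hij)⁻¹ : Matrix.SpecialLinearGroup (Fin n) F) :
      Matrix (Fin n) (Fin n) F) k l =
      dl j k * (t : Matrix (Fin n) (Fin n) F) (Equiv.swap i j k) (Equiv.swap i j l) *
        dl i (Equiv.swap i j l) := by
  rw [sS_inv]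
  show (mon i j (dl j) * (t : Matrix (Fin n) (Fin n) F) * mon i j (dl i) :
    Matrix (Fin n) (Fin n) F) k l = _
  rw [mul_mon, mon_mul]

lemma swap_lt (hij : i.val + 1 = j.val) {k l : Fin n} (hlk : l < k) (hne : ¬ (l = i ∧ k = j)) :
    Equiv.swap i j l < Equiv.swap i j k := by
  have h1 : l.val < k.val := hlk
  rw [Equiv.swap_apply_def, Equiv.swap_apply_def]
  split_ifs with a b c d e f g <;> simp only [Fin.lt_def, Fin.ext_iff] at * <;> omega

lemma conj'_mem_UU (hij : i.val + 1 = j.val) (hne : i ≠ j)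
    (u : Matrix.SpecialLinearGroup (Fin n) F) (hu : u ∈ UU n F)
    (h0 : (u : Matrix (Fin n) (Fin n) F) i j = 0) :
    sS (F := F) i j hne * u * (sS i j hne)⁻¹ ∈ UU n F := by
  refine ⟨fun k l hlk => ?_, fun k => ?_⟩
  · rw [conj'_apply]
    by_cases h : l = i ∧ k = j
    · obtain ⟨rfl, rfl⟩ := h
      rw [Equiv.swap_apply_left, Equiv.swap_apply_right, h0]
      simp
    · rw [hu.1 _ _ (swap_lt i j hij hlk h)]
      simp
  · rw [conj'_apply, hu.2, mul_one, dl_mul i j hne]

/-- the root element -/
def xS (hne : i ≠ j) (a : F) : Matrix.SpecialLinearGroup (Fin n) F :=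
  ⟨Matrix.transvection i j a, Matrix.det_transvection_of_ne i j hne a⟩

lemma tv_apply (a : F) (k l : Fin n) : Matrix.transvection i j a k l =
    (if k = l then 1 else 0) + if k = i ∧ l = j then a else 0 := by
  rw [Matrix.transvection, Matrix.add_apply, Matrix.one_apply, Matrix.single_apply]
  congr 1
  simp only [eq_comm]

lemma tv_mul_apply (a : F) (A : Matrix (Fin n) (Fin n) F) (k l : Fin n) :
    (Matrix.transvection i j a * A) k l = A k l + if k = i then a * A j l else 0 := by
  rw [Matrix.transvection, add_mul, one_mul, Matrix.add_apply]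
  congr 1
  split_ifs with h
  · subst h
    rw [Matrix.single_mul_apply_same]
  · rw [Matrix.single_mul_apply_of_ne _ _ _ _ _ h]

lemma mul_tv_apply (a : F) (A : Matrix (Fin n) (Fin n) F) (k l : Fin n) :
    (A * Matrix.transvection i j a) k l = A k l + if l = j then A k i * a else 0 := by
  rw [Matrix.transvection, mul_add, mul_one, Matrix.add_apply]
  congr 1
  split_ifs with h
  · subst h
    rw [Matrix.mul_single_apply_same]
  · rw [Matrix.mul_single_apply_of_ne _ _ _ _ _ h]

lemma xS_mem_UU (hlt : i < j) (a : F) : xS i j (ne_of_lt hlt) a ∈ UU n F := by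
  refine ⟨fun k l hlk => ?_, fun k => ?_⟩
  · show Matrix.transvection i j a k l = 0
    rw [tv_apply, if_neg (ne_of_gt hlk), if_neg, add_zero]
    rintro ⟨rfl, rfl⟩
    exact absurd hlk (not_lt.2 hlt.le)
  · show Matrix.transvection i j a k k = 1
    rw [tv_apply, if_pos rfl, if_neg, add_zero]
    rintro ⟨rfl, h⟩
    exact absurd h (ne_of_lt hlt)

/-- the diagonal of the torus element -/
def hv (d : F) : Fin n → F := fun k => if k = i then d else if k = j then d⁻¹ else 1

/-- the torus element -/
def hS (hne : i ≠ j) (d : F) (hd : d ≠ 0) : Matrix.SpecialLinearGroup (Fin n) F :=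
  ⟨Matrix.diagonal (hv i j d), by
    rw [Matrix.det_diagonal, Finset.prod_eq_mul i j hne]
    · simp [hv, hne.symm, hd]
    · intro k _ hk
      simp [hv, hk.1, hk.2]
    · intro h; exact absurd (Finset.mem_univ _) h
    · intro h; exact absurd (Finset.mem_univ _) h⟩

lemma hS_mem_TT (hne : i ≠ j) (d : F) (hd : d ≠ 0) : hS i j hne d hd ∈ TT n F := by
  intro k l hkl
  exact Matrix.diagonal_apply_ne _ hkl

lemma key (hne : i ≠ j) (a : F) (ha : a ≠ 0) :
    sS i j hne * xS i j hne a * sS i j hne =
      xS i j hne (-a⁻¹) * hS i j hne (-a⁻¹) (neg_ne_zero.2 (inv_ne_zero ha)) * sS i j hne *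
        xS i j hne (-a⁻¹) := by
  apply Subtype.ext
  ext k l
  show (mon i j (dl j) * Matrix.transvection i j a * mon i j (dl j) :
      Matrix (Fin n) (Fin n) F) k l =
    (Matrix.transvection i j (-a⁻¹) * Matrix.diagonal (hv i j (-a⁻¹)) * mon i j (dl j) *
      Matrix.transvection i j (-a⁻¹) : Matrix (Fin n) (Fin n) F) k l
  rw [mul_assoc, mon_mul, tv_mul_apply, mon_apply, mon_apply, mul_assoc, mul_assoc, tv_mul_apply,
    Matrix.diagonal_mul, Matrix.diagonal_mul, mon_mul, mon_mul, tv_apply, tv_apply]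
  by_cases hki : k = i
  · subst hki
    by_cases hl1 : l = k
    · subst hl1
      simp [hne, hne.symm, dl, hv]
      field_simp
    · by_cases hl2 : l = j
      · subst hl2
        simp [hne, hne.symm, dl, hv]
        field_simp
        ring
      · simp [hne, hne.symm, dl, hv, hl1, hl2, Ne.symm hl1, Ne.symm hl2]
  · by_cases hkj : k = j
    · subst hkj
      by_cases hl1 : l = i
      · subst hl1
        simp [hne, hne.symm, dl, hv]
      · by_cases hl2 : l = k
        · subst hl2
          simp [hne, hne.symm, dl, hv]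
          field_simp
        · simp [hne, hne.symm, dl, hv, hl1, hl2, Ne.symm hl1, Ne.symm hl2]
    · simp [Equiv.swap_apply_of_ne_of_ne hki hkj, hki, hkj, dl, hv]

end S3

open S3 in
/-- [S3] -/
theorem exists_refl (i j : Fin n) (hij : i.val + 1 = j.val) :
    ∃ s : Matrix.SpecialLinearGroup (Fin n) F, s * s ∈ TT n F ∧
      (∀ t ∈ TT n F, s⁻¹ * t * s ∈ TT n F ∧ ∀ k : Fin n,
        ((s⁻¹ * t * s : Matrix.SpecialLinearGroup (Fin n) F) : Matrix (Fin n) (Fin n) F) k k =
          (t : Matrix (Fin n) (Fin n) F) (Equiv.swap i j k) (Equiv.swap i j k)) ∧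
      ∀ u ∈ UU n F, (∃ u' ∈ UU n F, s * u * s = u' * (s * s)) ∨
        ∃ u₁ ∈ UU n F, ∃ t ∈ TT n F, ∃ u₂ ∈ UU n F, s * u * s = u₁ * t * s * u₂ := by
  have hlt : i < j := by
    show i.val < j.val
    omega
  have hne : i ≠ j := ne_of_lt hlt
  refine ⟨sS i j hne, ?_, ?_, ?_⟩
  · intro k l hkl
    rw [sS_sq_apply, if_neg hkl]
  · intro t ht
    refine ⟨fun k l hkl => ?_, fun k => ?_⟩
    · rw [conj_apply, ht _ _ (fun h => hkl ((Equiv.swap i j).injective h))]
      simp
    · rw [conj_apply, mul_right_comm, dl_mul' i j hne, one_mul]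
  · intro u hu
    by_cases ha : (u : Matrix (Fin n) (Fin n) F) i j = 0
    · left
      refine ⟨_, conj'_mem_UU i j hij hne u hu ha, ?_⟩
      group
    · right
      set a := (u : Matrix (Fin n) (Fin n) F) i j with hadef
      have hu' : u * xS i j hne (-a) ∈ UU n F := (UU n F).mul_mem hu (xS_mem_UU i j hlt _)
      have h0 : ((u * xS i j hne (-a) : Matrix.SpecialLinearGroup (Fin n) F) :
          Matrix (Fin n) (Fin n) F) i j = 0 := by
        show ((u : Matrix (Fin n) (Fin n) F) * Matrix.transvection i j (-a)) i j = 0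
        rw [mul_tv_apply, if_pos rfl, hu.2, one_mul, ← hadef, add_neg_cancel]
      have hxx : xS i j hne (-a) * xS i j hne a = 1 := by
        apply Subtype.ext
        show Matrix.transvection i j (-a) * Matrix.transvection i j a = 1
        rw [Matrix.transvection_mul_transvection_same i j hne, neg_add_cancel,
          Matrix.transvection_zero]
      refine ⟨sS i j hne * (u * xS i j hne (-a)) * (sS i j hne)⁻¹ * xS i j hne (-a⁻¹),
        (UU n F).mul_mem (conj'_mem_UU i j hij hne _ hu' h0) (xS_mem_UU i j hlt _),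
        hS i j hne (-a⁻¹) (neg_ne_zero.2 (inv_ne_zero ha)), hS_mem_TT i j hne _ _,
        xS i j hne (-a⁻¹), xS_mem_UU i j hlt _, ?_⟩
      have hk := key i j hne a ha
      calc sS i j hne * u * sS i j hne
          = sS i j hne * (u * (xS i j hne (-a) * xS i j hne a)) * sS i j hne := by
            rw [hxx, mul_one]
        _ = sS i j hne * (u * xS i j hne (-a)) * (sS i j hne)⁻¹ *
              (sS i j hne * xS i j hne a * sS i j hne) := by group
        _ = _ := by
            rw [hk]
            simp only [mul_assoc]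

end Cfsg.Agent.Lib.Helper39.SLblk
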