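import Cfsg.Agent.Lib.Helper39.SLblk.Base

set_option autoImplicit false

/-! # Blocks of `SL_n(q)`: pieces S4a, S4b, S4c, S5 (the diagonal subgroup) -/

namespace Cfsg.Agent.Lib.Helper39.SLblk

open Matrix

variable {n : ℕ} {F : Type*} [Field F]

namespace S45

theorem TT_mul_apply {s : Matrix.SpecialLinearGroup (Fin n) F} (hs : s ∈ TT n F)
    (M : Matrix (Fin n) (Fin n) F) (i j : Fin n) :
    ((s : Matrix (Fin n) (Fin n) F) * M) i j = (s : Matrix (Fin n) (Fin n) F) i i * M i j := by
  rw [Matrix.mul_apply]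
  apply Finset.sum_eq_single i
  · intro k _ hk
    rw [hs i k (Ne.symm hk), zero_mul]
  · intro h; exact absurd (Finset.mem_univ i) h

theorem mul_TT_apply {s : Matrix.SpecialLinearGroup (Fin n) F} (hs : s ∈ TT n F)
    (M : Matrix (Fin n) (Fin n) F) (i j : Fin n) :
    (M * (s : Matrix (Fin n) (Fin n) F)) i j = M i j * (s : Matrix (Fin n) (Fin n) F) j j := by
  rw [Matrix.mul_apply]
  apply Finset.sum_eq_single j
  · intro k _ hk
    rw [hs k j hk, mul_zero]
  · intro h; exact absurd (Finset.mem_univ j) h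

/-- diagonal elements -/
def dg (d : Fin n → F) (h : ∏ i, d i = 1) : Matrix.SpecialLinearGroup (Fin n) F :=
  ⟨Matrix.diagonal d, by rw [Matrix.det_diagonal, h]⟩

theorem dg_mem (d : Fin n → F) (h : ∏ i, d i = 1) : dg d h ∈ TT n F :=
  fun _ _ hij => Matrix.diagonal_apply_ne _ hij

theorem dg_diag (d : Fin n → F) (h : ∏ i, d i = 1) (k : Fin n) :
    (dg d h : Matrix (Fin n) (Fin n) F) k k = d k := Matrix.diagonal_apply_eq _ _

theorem dg_mul (d d' : Fin n → F) (h : ∏ i, d i = 1) (h' : ∏ i, d' i = 1) :
    dg d h * dg d' h' = dg (fun i => d i * d' i)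
      (by rw [Finset.prod_mul_distrib, h, h', one_mul]) := by
  apply Subtype.ext
  rw [Matrix.SpecialLinearGroup.coe_mul]
  exact Matrix.diagonal_mul_diagonal _ _

theorem dg_congr {d d' : Fin n → F} (h : ∏ i, d i = 1) (hd : ∀ i, d i = d' i) :
    ∃ h', dg d h = dg d' h' := by
  have : d = d' := funext hd
  subst this
  exact ⟨h, rfl⟩

theorem eq_diagonal {t : Matrix.SpecialLinearGroup (Fin n) F} (ht : t ∈ TT n F) :
    (t : Matrix (Fin n) (Fin n) F) = Matrix.diagonal fun i => (t : Matrix (Fin n) (Fin n) F) i i := by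
  ext i j
  by_cases hij : i = j
  · subst hij; rw [Matrix.diagonal_apply_eq]
  · rw [Matrix.diagonal_apply_ne _ hij, ht i j hij]

theorem eq_dg {t : Matrix.SpecialLinearGroup (Fin n) F} (ht : t ∈ TT n F) :
    ∃ h, t = dg (fun i => (t : Matrix (Fin n) (Fin n) F) i i) h := by
  have h : ∏ i, (t : Matrix (Fin n) (Fin n) F) i i = 1 := by
    rw [← Matrix.det_diagonal, ← eq_diagonal ht, t.2]
  exact ⟨h, Subtype.ext (eq_diagonal ht)⟩

/-- `c` at `i`, `c⁻¹` at `j` -/
def hh (i j : Fin n) (c : F) : Fin n → F :=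
  fun k => (if k = i then c else 1) * (if k = j then c⁻¹ else 1)

theorem prod_hh (i j : Fin n) {c : F} (hc : c ≠ 0) : ∏ k, hh i j c k = 1 := by
  unfold hh
  rw [Finset.prod_mul_distrib, Finset.prod_ite_eq', Finset.prod_ite_eq']
  simp [hc]

end S45

open S45

/-- [S4a] -/
theorem TT_normalizes_UU : ∀ t ∈ TT n F, ∀ u ∈ UU n F, t * u * t⁻¹ ∈ UU n F := by
  intro t ht u hu
  have htB := TT_le_BB ht
  have htB' := (BB n F).inv_mem htB
  have huB := UU_le_BB hu
  refine ⟨(BB n F).mul_mem ((BB n F).mul_mem htB huB) htB', fun i => ?_⟩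
  rw [Matrix.SpecialLinearGroup.coe_mul, tri_mul_diag ((BB n F).mul_mem htB huB) htB',
    Matrix.SpecialLinearGroup.coe_mul, tri_mul_diag htB huB, hu.2 i, mul_one,
    ← tri_mul_diag htB htB', ← Matrix.SpecialLinearGroup.coe_mul, mul_inv_cancel,
    Matrix.SpecialLinearGroup.coe_one, Matrix.one_apply_eq]

/-- [S4b] -/
theorem BB_eq_TT_mul_UU (b : Matrix.SpecialLinearGroup (Fin n) F) (hb : b ∈ BB n F) :
    ∃ t ∈ TT n F, ∃ u ∈ UU n F, b = t * u := by
  have hdet : ∏ i, (b : Matrix (Fin n) (Fin n) F) i i = 1 := by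
    rw [← Matrix.det_of_isUpperTriangular (show (b : Matrix (Fin n) (Fin n) F).BlockTriangular id from
      fun i j hij => hb i j hij), b.2]
  set t := dg (fun i => (b : Matrix (Fin n) (Fin n) F) i i) hdet with ht
  have htT : t ∈ TT n F := dg_mem _ _
  have htB := TT_le_BB htT
  have htB' := (BB n F).inv_mem htB
  refine ⟨t, htT, t⁻¹ * b, ⟨(BB n F).mul_mem htB' hb, fun i => ?_⟩, by group⟩
  have h1 : (b : Matrix (Fin n) (Fin n) F) i i = (t : Matrix (Fin n) (Fin n) F) i i :=
    (dg_diag _ hdet i).symm
  rw [Matrix.SpecialLinearGroup.coe_mul, tri_mul_diag htB' hb, h1, ← tri_mul_diag htB' htB,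
    ← Matrix.SpecialLinearGroup.coe_mul, inv_mul_cancel, Matrix.SpecialLinearGroup.coe_one,
    Matrix.one_apply_eq]

/-- [S4c] -/
theorem TT_comm : ∀ s ∈ TT n F, ∀ t ∈ TT n F, s * t = t * s := by
  intro s hs t ht
  apply Subtype.ext
  rw [Matrix.SpecialLinearGroup.coe_mul, Matrix.SpecialLinearGroup.coe_mul]
  ext i j
  rw [TT_mul_apply hs, mul_TT_apply hs]
  by_cases hij : i = j
  · subst hij; exact mul_comm _ _
  · rw [ht i j hij, mul_zero, zero_mul]

/-- [S5] -/
theorem weight_trivial (hn : 3 ≤ n) (lam : Matrix.SpecialLinearGroup (Fin n) F → ℂ)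
    (hmul : ∀ s ∈ TT n F, ∀ t ∈ TT n F, lam (s * t) = lam s * lam t)
    (hne : ∀ t ∈ TT n F, lam t ≠ 0)
    (hinv : ∀ i j : Fin n, i.val + 1 = j.val → ∀ t ∈ TT n F, ∀ t' ∈ TT n F,
      (∀ k : Fin n, (t' : Matrix (Fin n) (Fin n) F) k k =
        (t : Matrix (Fin n) (Fin n) F) (Equiv.swap i j k) (Equiv.swap i j k)) → lam t' = lam t) :
    ∀ t ∈ TT n F, lam t = 1 := by
  -- adjacent coroots
  have step1 : ∀ i j : Fin n, i.val + 1 = j.val → ∀ (c : F) (hc : c ≠ 0),
      lam (dg (hh i j c) (prod_hh i j hc)) = 1 := by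
    intro i j hij c hc
    obtain ⟨k, hki, hkj⟩ : ∃ k : Fin n, k ≠ i ∧ k ≠ j := by
      by_cases h0 : i.val = 0
      · refine ⟨⟨2, by omega⟩, ?_, ?_⟩ <;> intro h <;> have := congrArg Fin.val h <;>
          simp at this <;> omega
      · refine ⟨⟨0, by omega⟩, ?_, ?_⟩ <;> intro h <;> have := congrArg Fin.val h <;>
          simp at this <;> omega
    have hijne : i ≠ j := by
      intro h; rw [h] at hij; omega
    have h1 := hinv i j hij (dg (hh j k c) (prod_hh j k hc)) (dg_mem _ _)
      (dg (hh i k c) (prod_hh i k hc)) (dg_mem _ _) (by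
        intro m
        rw [dg_diag, dg_diag]
        unfold hh
        by_cases hmi : m = i
        · subst hmi
          rw [Equiv.swap_apply_left]
          simp [Ne.symm hki, Ne.symm hkj]
        · by_cases hmj : m = j
          · subst hmj
            rw [Equiv.swap_apply_right]
            simp [Ne.symm hki, Ne.symm hkj, hmi, hijne]
          · rw [Equiv.swap_apply_of_ne_of_ne hmi hmj]
            simp [hmi, hmj])
    have h2 : dg (hh i k c) (prod_hh i k hc) =
        dg (hh i j c) (prod_hh i j hc) * dg (hh j k c) (prod_hh j k hc) := by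
      rw [dg_mul]
      obtain ⟨h', e⟩ := dg_congr (d' := fun m => hh i j c m * hh j k c m) (prod_hh i k hc) (by
        intro m
        unfold hh
        by_cases hmj : m = j
        · subst hmj
          simp [hc]
        · simp [hmj])
      exact e
    rw [h2, hmul _ (dg_mem _ _) _ (dg_mem _ _)] at h1
    exact mul_right_cancel₀ (hne _ (dg_mem _ _)) (h1.trans (one_mul _).symm)
  have hone : lam 1 = 1 := by
    have h := hmul 1 (TT n F).one_mem 1 (TT n F).one_mem
    rw [mul_one] at h
    exact (mul_right_cancel₀ (hne 1 (TT n F).one_mem) (h.symm.trans (one_mul _).symm))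
  have claim : ∀ k : ℕ, ∀ (d : Fin n → F) (h : ∏ i, d i = 1),
      (∀ i : Fin n, i.val + k + 1 < n → d i = 1) → lam (dg d h) = 1 := by
    intro k
    induction k with
    | zero =>
      intro d h hd
      have hlast : d ⟨n - 1, by omega⟩ = 1 := by
        rw [← h]
        symm
        apply Finset.prod_eq_single
        · intro b _ hb
          apply hd
          have : b.val ≠ n - 1 := fun hh => hb (Fin.ext hh)
          have := b.2
          omega
        · intro hh; exact absurd (Finset.mem_univ _) hh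
      have hall : ∀ i, d i = 1 := by
        intro i
        by_cases hi : i.val + 0 + 1 < n
        · exact hd i hi
        · have : i = ⟨n - 1, by omega⟩ := Fin.ext (by have := i.2; simp; omega)
          rw [this, hlast]
      have : dg d h = 1 := by
        apply Subtype.ext
        show Matrix.diagonal d = _
        rw [show d = fun _ => 1 from funext hall, Matrix.diagonal_one]
        rfl
      rw [this, hone]
    | succ k ih =>
      intro d h hd
      by_cases hk : k + 2 ≤ n
      · set i₀ : Fin n := ⟨n - k - 2, by omega⟩ with hi₀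
        set j₀ : Fin n := ⟨n - k - 1, by omega⟩ with hj₀
        have hij : i₀.val + 1 = j₀.val := by simp [hi₀, hj₀]; omega
        have hijne : i₀ ≠ j₀ := by
          intro hh; rw [hh] at hij; omega
        have hc : d i₀ ≠ 0 := by
          intro h0
          have : ∏ i, d i = 0 := Finset.prod_eq_zero (Finset.mem_univ i₀) h0
          rw [h] at this
          exact one_ne_zero this
        have hc' : (d i₀)⁻¹ ≠ 0 := inv_ne_zero hc
        have hprod : ∏ m, hh i₀ j₀ (d i₀)⁻¹ m * d m = 1 := by
          rw [Finset.prod_mul_distrib, prod_hh _ _ hc', h, one_mul]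
        have e : dg d h = dg (hh i₀ j₀ (d i₀)) (prod_hh _ _ hc) *
            dg (fun m => hh i₀ j₀ (d i₀)⁻¹ m * d m) hprod := by
          rw [dg_mul]
          obtain ⟨h', e⟩ := dg_congr
            (d' := fun m => hh i₀ j₀ (d i₀) m * (hh i₀ j₀ (d i₀)⁻¹ m * d m)) h (by
            intro m
            unfold hh
            by_cases hmi : m = i₀
            · rw [hmi]; simp [hijne, hc]
            · by_cases hmj : m = j₀
              · rw [hmj]; simp [Ne.symm hijne, hc]
              · simp [hmi, hmj])
          exact e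
        rw [e, hmul _ (dg_mem _ _) _ (dg_mem _ _), step1 i₀ j₀ hij _ hc, one_mul]
        apply ih
        intro i hi
        by_cases hii : i = i₀
        · rw [hii]
          unfold hh
          simp [hijne, hc]
        · have hlt : i.val + (k + 1) + 1 < n := by
            have : i.val ≠ n - k - 2 := fun hh => hii (Fin.ext hh)
            omega
          have hij' : i ≠ j₀ := by
            intro hh
            have := congrArg Fin.val hh
            simp [hj₀] at this
            omega
          rw [hd i hlt]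
          unfold hh
          simp [hii, hij']
      · apply ih
        intro i hi
        omega
  intro t ht
  obtain ⟨h, e⟩ := eq_dg ht
  rw [e]
  apply claim n
  intro i hi
  omega

end Cfsg.Agent.Lib.Helper39.SLblk
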