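import Cfsg.Agent.Lib.Helper39.SLblk.Base
import Cfsg.Agent.Lib.Helper39.GL2Char.SClassify

/-!
# `SL_2(q)`: the only irreducible character vanishing on `U ∖ 1` is the Steinberg character
-/

set_option autoImplicit false

namespace Cfsg.Agent.Lib.Helper39.SLblk

open Cfsg Cfsg.Agent.Lib Cfsg.Agent.Lib.Helper15 Cfsg.Agent.Lib.Helper39

variable {F : Type*} [Field F]

namespace S7

theorem bS_mem_UU (x : F) : bS 1 x ∈ UU 2 F := by
  rw [mem_UU, bS_coe]
  constructor
  · intro i j hij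
    fin_cases i <;> fin_cases j <;> simp_all
  · intro i
    fin_cases i <;> simp

theorem bS_ne_one {x : F} (hx : x ≠ 0) : bS 1 x ≠ 1 := by
  intro h
  have := congrArg (fun g : SL2 F => (g : Matrix (Fin 2) (Fin 2) F) 0 1) h
  simp [bS_coe] at this
  exact hx this

theorem eq_stS [Fintype F] [DecidableEq F] {θ : SL2 F → ℂ} (hθ : IsIrrCharacter (SL2 F) θ)
    (hv : ∀ u ∈ UU 2 F, u ≠ 1 → θ u = 0) : θ = stS := by
  have hq := card_F_ne_zero (F := F)
  have hv' : ∀ x : F, x ≠ 0 → θ (bS 1 x) = 0 := fun x hx => hv _ (bS_mem_UU x) (bS_ne_one hx)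
  have ha : aS θ = (Fintype.card F : ℂ)⁻¹ * θ 1 := by
    unfold aS
    congr 1
    rw [Finset.sum_eq_single (0 : F)]
    · rw [bS_one]
    · intro x _ hx
      exact hv' x hx
    · intro h; exact absurd (Finset.mem_univ _) h
  have ha0 : aS θ ≠ 0 := by
    rw [ha]
    exact mul_ne_zero (inv_ne_zero hq) (irr_one_ne_zero hθ)
  rcases irr_of_aS_ne_zero hθ ha0 with h | h | ⟨α, -, h⟩ | ⟨α, hα2, hα1, h⟩
  · exfalso
    have := hv' 1 one_ne_zero
    rw [h] at this
    exact one_ne_zero this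
  · exact h
  · exfalso
    have := hv' 1 one_ne_zero
    rw [h, psS_u α one_ne_zero] at this
    exact one_ne_zero this
  · exfalso
    have h' : classInner (psS α) θ ≠ 0 := by
      rwa [inner_comm_of_char (psS_char α) (irr_char hθ)]
    have hφ := char_sub_irr (psS_char α) hθ h'
    obtain ⟨k, hk⟩ := aS_nat (irr_char hθ)
    obtain ⟨l, hl⟩ := aS_nat hφ
    obtain ⟨m, hm⟩ := char_one_nat hφ
    have e1 : psS α = (psS α - θ) + θ := by abel
    have e2 : (l : ℂ) + k = 2 := by
      rw [← hl, ← hk, ← aS_add, ← e1, aS_psS]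
    have e2' : l + k = 2 := by exact_mod_cast e2
    have hk0 : k ≠ 0 := by
      rintro rfl
      exact ha0 (by rw [hk]; simp)
    have hθ1 : θ 1 = (Fintype.card F : ℂ) * k := by
      rw [← hk, ha]
      field_simp
    have e3 : (m : ℂ) + (Fintype.card F : ℂ) * k = (Fintype.card F : ℂ) + 1 := by
      rw [← hm, ← hθ1, Pi.sub_apply, psS_one]
      ring
    have e3' : m + Fintype.card F * k = Fintype.card F + 1 := by exact_mod_cast e3
    have hq2 : 2 ≤ Fintype.card F := Fintype.one_lt_card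
    have hk1 : k = 1 := by
      have : k = 1 ∨ k = 2 := by omega
      rcases this with h1 | h1
      · exact h1
      · subst h1
        omega
    subst hk1
    have hm1 : m = 1 := by omega
    subst hm1
    have hone : psS α - θ = fun _ => 1 := by
      apply eq_one_of_linear hφ (by rw [hm]; simp)
      intro x
      by_cases hx : x = 0
      · subst hx
        rw [bS_one, hm]; simp
      · rw [Pi.sub_apply, psS_u α hx, hv' x hx, sub_zero]
    have e4 := inner_psS_one α
    rw [if_neg hα1, e1, hone, classInner_add_left, irr_inner_self one_irr_S] at e4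
    obtain ⟨r, hr⟩ := inner_nat (irr_char hθ) (irr_char (one_irr_S (F := F)))
    rw [hr] at e4
    have : 1 + r = 0 := by exact_mod_cast e4
    omega

end S7

/-- [S7] uniqueness for `n = 2` -/
theorem unique_of_vanish_two [Fintype F] [DecidableEq F]
    {χ₁ χ₂ : Matrix.SpecialLinearGroup (Fin 2) F → ℂ}
    (h₁ : IsIrrCharacter _ χ₁) (h₂ : IsIrrCharacter _ χ₂)
    (hv₁ : ∀ u ∈ UU 2 F, u ≠ 1 → χ₁ u = 0) (hv₂ : ∀ u ∈ UU 2 F, u ≠ 1 → χ₂ u = 0) : χ₁ = χ₂ := by
  rw [S7.eq_stS h₁ hv₁, S7.eq_stS h₂ hv₂]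

end Cfsg.Agent.Lib.Helper39.SLblk
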