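import Cfsg.Agent.Lib.Helper39.SLblk.Base
import Cfsg.Agent.S2544
import Cfsg.Agent.Lib.Helper17.Unitri

set_option autoImplicit false

namespace Cfsg.Agent.Lib.Helper39.SLblk

open Cfsg Module Cfsg.Agent.Lib.Helper39.SLmin
open Matrix
open scoped MatrixGroups

variable {n : ℕ} {F : Type*} [Field F]

/-- [S8] -/
theorem exists_defect_zero [Fintype F] (p : ℕ) [Fact p.Prime] [CharP F p] (hn : 2 ≤ n) :
    ∃ χ : IrrCharacter (Matrix.SpecialLinearGroup (Fin n) F),
      ¬ p ∣ Nat.card (Matrix.SpecialLinearGroup (Fin n) F) /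
        charDegree (χ : Matrix.SpecialLinearGroup (Fin n) F → ℂ) := by
  classical
  have hp : p.Prime := Fact.out
  obtain ⟨f, _, hf⟩ := FiniteField.card F p
  set N := n * (n - 1) / 2 with hN
  have hirr := Cfsg.Agent.S2544.st_irr (F := F) n
  have hone := Cfsg.Agent.S2544.st_one (F := F) n
  have hdeg : Cfsg.charDegree (Cfsg.unipotentCharacterGL n F (fun _ => 1)) = Fintype.card F ^ N := by
    have h := Cfsg.Agent.Lib.Helper80.char_one_eq_charDegree
      (Cfsg.Agent.Lib.Helper80.isCharacter_of_irr hirr)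
    rw [hone] at h
    exact_mod_cast h.symm
  let K : Subgroup (GL (Fin n) F) :=
    (Matrix.GeneralLinearGroup.det : GL (Fin n) F →* Fˣ).ker
  have hcop : (Cfsg.charDegree (Cfsg.unipotentCharacterGL n F (fun _ => 1))).Coprime K.index := by
    rw [hdeg, hf]
    apply Nat.Coprime.pow_left
    apply Nat.Coprime.pow_left
    rw [Nat.Prime.coprime_iff_not_dvd hp]
    intro h
    have h1 : K.index ∣ Nat.card Fˣ := by
      rw [Subgroup.index_ker]
      exact Subgroup.card_subgroup_dvd_card _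
    have h2 : p ∣ Fintype.card F - 1 := by
      have := h.trans h1
      rwa [Nat.card_eq_fintype_card, Fintype.card_units] at this
    have h3 : p ∣ Fintype.card F := by rw [hf]; exact dvd_pow_self p f.pos.ne'
    have h4 : p ∣ 1 := by
      have := Nat.dvd_sub h3 h2
      rwa [Nat.sub_sub_self Fintype.card_pos] at this
    exact hp.one_lt.ne' (Nat.dvd_one.1 h4)
  have hK := Cfsg.Agent.Lib.Helper15.restrict_irr_of_coprime K hirr hcop
  let φ : Matrix.SpecialLinearGroup (Fin n) F →* K :=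
    (Matrix.SpecialLinearGroup.toGL).codRestrict K (fun s => by
      rw [MonoidHom.mem_ker]
      exact Matrix.SpecialLinearGroup.coeToGL_det s)
  have hφ : Function.Surjective φ := by
    rintro ⟨g, hg⟩
    have : g ∈ (Matrix.SpecialLinearGroup.toGL :
        Matrix.SpecialLinearGroup (Fin n) F →* GL (Fin n) F).range := by
      rw [Cfsg.Agent.Lib.Helper5.range_toGL_eq_ker_det]; exact hg
    obtain ⟨s, rfl⟩ := this
    exact ⟨s, rfl⟩
  have hSL := Cfsg.Agent.Lib.Helper80.isIrrCharacter_comp φ hφ hK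
  refine ⟨⟨_, hSL⟩, ?_⟩
  set ψ : Matrix.SpecialLinearGroup (Fin n) F → ℂ :=
    ((⟨_, hSL⟩ : IrrCharacter (Matrix.SpecialLinearGroup (Fin n) F)) :
      Matrix.SpecialLinearGroup (Fin n) F → ℂ) with hψdef
  have hψ1 : ψ 1 = ((Fintype.card F ^ N : ℕ) : ℂ) := by
    change Cfsg.unipotentCharacterGL n F (fun _ => 1) (Matrix.SpecialLinearGroup.toGL 1) = _
    rw [map_one, hone]
    push_cast
    rfl
  have hψdeg : Cfsg.charDegree ψ = Fintype.card F ^ N := by
    have h : ψ 1 = (Cfsg.charDegree ψ : ℂ) := Cfsg.Agent.Lib.Helper80.char_one_eq_charDegree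
      (Cfsg.Agent.Lib.Helper80.isCharacter_of_irr hSL)
    rw [hψ1] at h
    exact_mod_cast h.symm
  rw [hψdeg]
  obtain ⟨m, hm, hGL⟩ := Cfsg.Agent.S2544.card_GL_factor (F := F) p n
  have hb : Nat.card (Matrix.SpecialLinearGroup (Fin n) F) ∣ Fintype.card F ^ N * m := by
    rw [← hGL]
    exact Subgroup.card_dvd_of_injective _ Matrix.SpecialLinearGroup.toGL_injective
  have hd1 : Fintype.card F ^ N ∣ Nat.card (Matrix.SpecialLinearGroup (Fin n) F) := by
    have := Cfsg.Agent.Lib.Helper78.irr_charDegree_dvd_card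
      (⟨_, hSL⟩ : Cfsg.IrrCharacter (Matrix.SpecialLinearGroup (Fin n) F))
    change Cfsg.charDegree ψ ∣ _ at this
    rwa [hψdeg] at this
  obtain ⟨c, hc⟩ := hd1
  have hpos : 0 < Fintype.card F ^ N := pow_pos Fintype.card_pos _
  rw [hc, Nat.mul_div_cancel_left _ hpos]
  rw [hc] at hb
  have hcm : c ∣ m := Nat.dvd_of_mul_dvd_mul_left hpos hb
  intro hpc
  exact (Nat.Prime.coprime_iff_not_dvd hp).1 hm.symm (hpc.trans hcm)

/-- a nontrivial upper unitriangular matrix has order divisible by `p`. -/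
theorem dvd_orderOf_of_mem_UU (p : ℕ) [Fact p.Prime] [CharP F p]
    (u : Matrix.SpecialLinearGroup (Fin n) F) (hu : u ∈ UU n F) (hu1 : u ≠ 1) : p ∣ orderOf u := by
  have hp : p.Prime := Fact.out
  have hne : Nonempty (Fin n) := by
    by_contra h
    rw [not_nonempty_iff] at h
    exact hu1 (Subsingleton.elim _ _)
  have hfilt : Cfsg.Agent.Lib.Helper17.Filt (fun i : Fin n => n - 1 - i.val) 1
      ((u : Matrix (Fin n) (Fin n) F) - 1) := by
    intro i j hij
    have hi := i.2
    have hj := j.2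
    have hji : j ≤ i := by
      rw [Fin.le_def]
      simp only at hij
      omega
    rcases hji.lt_or_eq with h | h
    · rw [Matrix.sub_apply, hu.1 i j h, Matrix.one_apply_ne (ne_of_gt h), sub_zero]
    · subst h
      rw [Matrix.sub_apply, hu.2 j, Matrix.one_apply_eq, sub_self]
  have hpow : ((u : Matrix (Fin n) (Fin n) F) - 1) ^ (p ^ n) = 0 := by
    apply Cfsg.Agent.Lib.Helper17.Filt.eq_zero (wt := fun i : Fin n => n - 1 - i.val) (m := p ^ n)
    · intro i
      have := i.2
      have h2 : n < p ^ n := Nat.lt_pow_self hp.one_lt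
      omega
    · simpa using hfilt.pow (p ^ n)
  have h1 : u ^ (p ^ n) = 1 := by
    apply Subtype.ext
    rw [Matrix.SpecialLinearGroup.coe_pow, Matrix.SpecialLinearGroup.coe_one]
    rw [sub_pow_char_pow_of_commute _ _ (Commute.one_right _), one_pow, sub_eq_zero] at hpow
    exact hpow
  obtain ⟨k, _, hk⟩ := (Nat.dvd_prime_pow hp).1 (orderOf_dvd_of_pow_eq_one h1)
  rw [hk]
  apply dvd_pow_self
  rintro rfl
  apply hu1
  simpa using hk

/-- [S9] -/
theorem vanish_of_defect_zero [Fintype F] (p : ℕ) [Fact p.Prime] [CharP F p]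
    (χ : IrrCharacter (Matrix.SpecialLinearGroup (Fin n) F))
    (h : ¬ p ∣ Nat.card (Matrix.SpecialLinearGroup (Fin n) F) /
        charDegree (χ : Matrix.SpecialLinearGroup (Fin n) F → ℂ)) :
    ∀ u ∈ UU n F, u ≠ 1 → (χ : Matrix.SpecialLinearGroup (Fin n) F → ℂ) u = 0 := by
  classical
  intro u hu hu1
  obtain ⟨M, hM⟩ := Cfsg.Agent.Lib.Helper78.exists_isPModular p Fact.out
  exact Cfsg.Agent.Lib.Helper78.eq_zero_of_blockOf_eq_singleton hM χ
    (Cfsg.Agent.Lib.Helper78.blockOf_eq_singleton_of_defect_zero hM χ h) u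
    (dvd_orderOf_of_mem_UU p u hu hu1)

end Cfsg.Agent.Lib.Helper39.SLblk
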