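import Cfsg.Agent.Lib.Helper39.SLblk.G1
import Cfsg.Agent.Lib.Helper39.SLblk.G2
import Cfsg.Agent.Lib.Helper39.SLblk.G3
import Cfsg.Agent.Lib.Helper39.SLblk.G4
import Cfsg.Agent.Lib.Helper39.SLblk.S1
import Cfsg.Agent.Lib.Helper39.SLblk.S2b
import Cfsg.Agent.Lib.Helper39.SLblk.S3
import Cfsg.Agent.Lib.Helper39.SLblk.S45
import Cfsg.Agent.Lib.Helper39.SLblk.S7
import Cfsg.Agent.Lib.Helper39.SLblk.S89
import Cfsg.Agent.Lib.Helper81.Schur

/-!
# Blocks of `SL_n(q)` in the defining characteristic: assembly (helper39)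
-/

set_option autoImplicit false

namespace Cfsg.Agent.Lib.Helper39.SLblk

open Cfsg Module Cfsg.Agent.Lib.Helper39.SLmin Matrix

variable {n : ℕ} {F : Type*} [Field F]

namespace Asm

theorem sum_vanish [Fintype (UU n F)] {χ : Matrix.SpecialLinearGroup (Fin n) F → ℂ}
    (hv : ∀ u ∈ UU n F, u ≠ 1 → χ u = 0) (μ : UU n F →* ℂ) :
    ∑ u : UU n F, μ u⁻¹ * χ u = χ 1 := by
  rw [Finset.sum_eq_single (1 : UU n F)]
  · simp
  · intro u _ hu
    rw [hv u u.2 (fun h => hu (Subtype.ext h)), mul_zero]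
  · intro h; exact absurd (Finset.mem_univ _) h

theorem key [Fintype F] [DecidableEq F] [Fintype (UU n F)] [Fintype (BB n F)] (hn : 3 ≤ n)
    (ψ : UU n F →* ℂ) (w0 : Matrix.SpecialLinearGroup (Fin n) F)
    (hcell : Cell (UU n F) (BB n F) w0 ψ)
    {χ : Matrix.SpecialLinearGroup (Fin n) F → ℂ} (h : IsIrrCharacter _ χ)
    (hv : ∀ u ∈ UU n F, u ≠ 1 → χ u = 0) :
    ∑ b : BB n F, χ b ≠ 0 ∧ ∑ u : UU n F, ψ u⁻¹ * χ u ≠ 0 := by
  obtain ⟨d, ρ, hirr, rfl⟩ := h
  have hd : ρ.character 1 ≠ 0 := by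
    have h1 := Cfsg.Agent.Lib.Helper81.finrank_pos_of_irreducible ρ
    rw [Representation.char_one]
    exact_mod_cast h1.ne'
  have hcU : (Fintype.card (UU n F) : ℂ) ≠ 0 := by exact_mod_cast Fintype.card_ne_zero
  have hfr : ∀ μ : UU n F →* ℂ, (finrank ℂ (eig ρ (UU n F).subtype μ) : ℂ)
      = (Fintype.card (UU n F) : ℂ)⁻¹ * ρ.character 1 := by
    intro μ
    rw [finrank_eig]
    congr 1
    exact sum_vanish hv μ
  have hfeq : finrank ℂ (eig ρ (UU n F).subtype 1) = finrank ℂ (eig ρ (UU n F).subtype ψ) := by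
    have := (hfr 1).trans (hfr ψ).symm
    exact_mod_cast this
  have hf0 : finrank ℂ (eig ρ (UU n F).subtype 1) ≠ 0 := by
    intro h0
    have := hfr 1
    rw [h0] at this
    simp only [Nat.cast_zero] at this
    exact mul_ne_zero (inv_ne_zero hcU) hd this.symm
  have hE : eig ρ (UU n F).subtype 1 ≠ ⊥ := by
    intro h0
    rw [h0] at hf0
    simp at hf0
  -- the common eigenvector
  obtain ⟨v, hvE, hv0, hvT⟩ := exists_common_eigenvector
    (fun t : TT n F => ρ (t : Matrix.SpecialLinearGroup (Fin n) F))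
    (by
      intro s t
      have e := TT_comm s.1 s.2 t.1 t.2
      change ρ s.1 * ρ t.1 = ρ t.1 * ρ s.1
      rw [← map_mul, ← map_mul, e])
    (eig ρ (UU n F).subtype 1) hE
    (by
      intro t y hy
      apply map_eig ρ (UU n F).subtype 1 t.1 _ hy
      intro γ
      have := TT_normalizes_UU t.1⁻¹ ((TT n F).inv_mem t.2) γ.1 γ.2
      rw [inv_inv] at this
      exact ⟨⟨_, this⟩, rfl, rfl⟩)
  have hU : ∀ u ∈ UU n F, ρ u v = v := by
    intro u hu
    have := hvE ⟨u, hu⟩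
    simpa using this
  have hB : ∀ b ∈ BB n F, ∃ c : ℂ, ρ b v = c • v := by
    intro b hb
    obtain ⟨t, ht, u, hu, rfl⟩ := BB_eq_TT_mul_UU b hb
    obtain ⟨c, hc⟩ := hvT ⟨t, ht⟩
    refine ⟨c, ?_⟩
    rw [map_mul, Module.End.mul_apply, hU u hu]
    exact hc
  have hle := finrank_eig_le_one hcell ρ hv0 hU hB
  have h1 : finrank ℂ (eig ρ (UU n F).subtype 1) = 1 := by omega
  -- the weight
  classical
  let lam : Matrix.SpecialLinearGroup (Fin n) F → ℂ :=
    fun t => if ht : t ∈ TT n F then (hvT ⟨t, ht⟩).choose else 0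
  have hlam : ∀ t ∈ TT n F, ρ t v = lam t • v := by
    intro t ht
    have := (hvT ⟨t, ht⟩).choose_spec
    simp only [lam, dif_pos ht]
    exact this
  have hmul : ∀ s ∈ TT n F, ∀ t ∈ TT n F, lam (s * t) = lam s * lam t := by
    intro s hs t ht
    have e1 := hlam (s * t) ((TT n F).mul_mem hs ht)
    rw [map_mul, Module.End.mul_apply, hlam t ht, map_smul, hlam s hs, smul_smul] at e1
    have := smul_left_injective ℂ hv0 e1
    rw [← this, mul_comm]
  have hne : ∀ t ∈ TT n F, lam t ≠ 0 := by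
    intro t ht h0
    have e1 := hlam t ht
    rw [h0, zero_smul] at e1
    have e2 : ρ t⁻¹ (ρ t v) = v := by
      rw [← Module.End.mul_apply, ← map_mul, inv_mul_cancel, map_one, Module.End.one_apply]
    rw [e1, map_zero] at e2
    exact hv0 e2.symm
  have hinv : ∀ i j : Fin n, i.val + 1 = j.val → ∀ t ∈ TT n F, ∀ t' ∈ TT n F,
      (∀ k : Fin n, (t' : Matrix (Fin n) (Fin n) F) k k =
        (t : Matrix (Fin n) (Fin n) F) (Equiv.swap i j k) (Equiv.swap i j k)) → lam t' = lam t := by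
    intro i j hij t ht t' ht' hk
    obtain ⟨s, hs2, hsT, hsR⟩ := exists_refl (F := F) i j hij
    obtain ⟨hm, hdiag⟩ := hsT t ht
    have e : t' = s⁻¹ * t * s := by
      apply Subtype.ext
      ext a b
      by_cases hab : a = b
      · subst hab
        rw [hk, hdiag]
      · rw [ht' a b hab, hm a b hab]
    rw [e]
    exact weight_invariant TT_normalizes_UU s hs2 hsR ρ h1 hv0 hvE hlam t ht hm
  have htriv := weight_trivial hn lam hmul hne hinv
  have hBfix : ∀ b ∈ BB n F, ρ b v = v := by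
    intro b hb
    obtain ⟨t, ht, u, hu, rfl⟩ := BB_eq_TT_mul_UU b hb
    rw [map_mul, Module.End.mul_apply, hU u hu, hlam t ht, htriv t ht, one_smul]
  constructor
  · intro h0
    have e := finrank_eig ρ (BB n F).subtype 1
    simp only [MonoidHom.one_apply, one_mul, Subgroup.coe_subtype] at e
    rw [h0, mul_zero] at e
    have e2 : finrank ℂ (eig ρ (BB n F).subtype 1) = 0 := by exact_mod_cast e
    rw [Submodule.finrank_eq_zero] at e2
    have hmem : v ∈ eig ρ (BB n F).subtype 1 := by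
      intro γ
      simpa using hBfix γ.1 γ.2
    rw [e2] at hmem
    exact hv0 (by simpa using hmem)
  · rw [sum_vanish hv ψ]
    exact hd

end Asm

/-- [S6] uniqueness for `n ≥ 3` -/
theorem unique_of_vanish [Fintype F] [DecidableEq F] (hn : 3 ≤ n)
    {χ₁ χ₂ : Matrix.SpecialLinearGroup (Fin n) F → ℂ}
    (h₁ : IsIrrCharacter _ χ₁) (h₂ : IsIrrCharacter _ χ₂)
    (hv₁ : ∀ u ∈ UU n F, u ≠ 1 → χ₁ u = 0) (hv₂ : ∀ u ∈ UU n F, u ≠ 1 → χ₂ u = 0) : χ₁ = χ₂ := by
  classical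
  obtain ⟨ψ, hψ⟩ := exists_nondeg (n := n) (F := F)
  obtain ⟨w0, hcell⟩ := exists_cell ψ hψ
  obtain ⟨a1, b1⟩ := Asm.key hn ψ w0 hcell h₁ hv₁
  obtain ⟨a2, b2⟩ := Asm.key hn ψ w0 hcell h₂ hv₂
  exact irr_unique UU_le_BB hcell h₁ h₂ a1 a2 b1 b2

theorem card_defect_zero_SL [Fintype F] (p : ℕ) [Fact p.Prime] [CharP F p] (hn : 2 ≤ n) :
    Nat.card {χ : IrrCharacter (Matrix.SpecialLinearGroup (Fin n) F) //
      ¬ p ∣ Nat.card (Matrix.SpecialLinearGroup (Fin n) F) /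
        charDegree (χ : Matrix.SpecialLinearGroup (Fin n) F → ℂ)} = 1 := by
  classical
  rw [Nat.card_eq_one_iff_unique]
  obtain ⟨χ0, h0⟩ := exists_defect_zero (F := F) p hn
  refine ⟨⟨fun a b => ?_⟩, ⟨⟨χ0, h0⟩⟩⟩
  apply Subtype.ext; apply Subtype.ext
  have ha := vanish_of_defect_zero p a.1 a.2
  have hb := vanish_of_defect_zero p b.1 b.2
  rcases Nat.lt_or_ge 2 n with h | h
  · exact unique_of_vanish h a.1.2 b.1.2 ha hb
  · obtain rfl : n = 2 := le_antisymm h hn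
    exact unique_of_vanish_two a.1.2 b.1.2 ha hb

end Cfsg.Agent.Lib.Helper39.SLblk
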