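import Mathlib
import Cfsg.Agent.Lib.Helper39.SLmin.Basic
import Cfsg.Agent.Lib.Helper39.SLmin.Transv

/-!
# Blocks of `SL_n(q)` in the defining characteristic: basic definitions

`BB`, `UU`, `TT`: upper triangular, upper unitriangular, diagonal subgroups of `SL_n(F)`.
-/

set_option autoImplicit false

namespace Cfsg.Agent.Lib.Helper39.SLblk

open Matrix

variable {n : ℕ} {F : Type*} [Field F]

theorem tri_mul {A B : Matrix (Fin n) (Fin n) F} (hA : ∀ i j : Fin n, j < i → A i j = 0)
    (hB : ∀ i j : Fin n, j < i → B i j = 0) : ∀ i j : Fin n, j < i → (A * B) i j = 0 := by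
  intro i j hij
  rw [Matrix.mul_apply]
  apply Finset.sum_eq_zero
  intro k _
  by_cases hk : k < i
  · rw [hA i k hk, zero_mul]
  · rw [hB k j (lt_of_lt_of_le hij (not_lt.1 hk)), mul_zero]

theorem tri_mul_diag {A B : Matrix (Fin n) (Fin n) F} (hA : ∀ i j : Fin n, j < i → A i j = 0)
    (hB : ∀ i j : Fin n, j < i → B i j = 0) (i : Fin n) : (A * B) i i = A i i * B i i := by
  rw [Matrix.mul_apply]
  apply Finset.sum_eq_single i
  · intro k _ hk
    rcases lt_or_gt_of_ne hk with h | h
    · rw [hA i k h, zero_mul]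
    · rw [hB k i h, mul_zero]
  · intro h; exact absurd (Finset.mem_univ i) h

theorem tri_inv (g : Matrix.SpecialLinearGroup (Fin n) F)
    (hg : ∀ i j : Fin n, j < i → (g : Matrix (Fin n) (Fin n) F) i j = 0) :
    ∀ i j : Fin n, j < i → ((g⁻¹ : Matrix.SpecialLinearGroup (Fin n) F) : Matrix (Fin n) (Fin n) F) i j = 0 := by
  have hbt : (g : Matrix (Fin n) (Fin n) F).BlockTriangular id := fun i j h => hg i j h
  have hdet : IsUnit (g : Matrix (Fin n) (Fin n) F).det := by rw [g.2]; exact isUnit_one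
  have : Invertible (g : Matrix (Fin n) (Fin n) F) := Matrix.invertibleOfIsUnitDet _ hdet
  have h2 := Matrix.blockTriangular_inv_of_blockTriangular hbt
  have e : ((g⁻¹ : Matrix.SpecialLinearGroup (Fin n) F) : Matrix (Fin n) (Fin n) F)
      = (g : Matrix (Fin n) (Fin n) F)⁻¹ := by
    rw [Matrix.SpecialLinearGroup.coe_inv, Matrix.inv_def, g.2]; simp
  intro i j hij
  rw [e]
  exact h2 hij

/-- upper triangular matrices in `SL_n`. -/
def BB (n : ℕ) (F : Type*) [Field F] : Subgroup (Matrix.SpecialLinearGroup (Fin n) F) where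
  carrier := {g | ∀ i j : Fin n, j < i → (g : Matrix (Fin n) (Fin n) F) i j = 0}
  mul_mem' := fun {a b} ha hb => by
    intro i j hij
    rw [Matrix.SpecialLinearGroup.coe_mul]
    exact tri_mul ha hb i j hij
  one_mem' := by
    intro i j hij
    rw [Matrix.SpecialLinearGroup.coe_one, Matrix.one_apply_ne (ne_of_gt hij)]
  inv_mem' := fun {a} ha => tri_inv a ha

theorem mem_BB {g : Matrix.SpecialLinearGroup (Fin n) F} :
    g ∈ BB n F ↔ ∀ i j : Fin n, j < i → (g : Matrix (Fin n) (Fin n) F) i j = 0 := Iff.rfl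

/-- upper unitriangular matrices in `SL_n`. -/
def UU (n : ℕ) (F : Type*) [Field F] : Subgroup (Matrix.SpecialLinearGroup (Fin n) F) where
  carrier := {g | (∀ i j : Fin n, j < i → (g : Matrix (Fin n) (Fin n) F) i j = 0) ∧
    ∀ i : Fin n, (g : Matrix (Fin n) (Fin n) F) i i = 1}
  mul_mem' := fun {a b} ha hb => by
    refine ⟨fun i j hij => ?_, fun i => ?_⟩
    · rw [Matrix.SpecialLinearGroup.coe_mul]
      exact tri_mul ha.1 hb.1 i j hij
    · rw [Matrix.SpecialLinearGroup.coe_mul, tri_mul_diag ha.1 hb.1, ha.2, hb.2, one_mul]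
  one_mem' := by
    refine ⟨fun i j hij => ?_, fun i => ?_⟩
    · rw [Matrix.SpecialLinearGroup.coe_one, Matrix.one_apply_ne (ne_of_gt hij)]
    · rw [Matrix.SpecialLinearGroup.coe_one, Matrix.one_apply_eq]
  inv_mem' := fun {a} ha => by
    refine ⟨tri_inv a ha.1, fun i => ?_⟩
    have h := tri_mul_diag ha.1 (tri_inv a ha.1) i
    rw [← Matrix.SpecialLinearGroup.coe_mul, mul_inv_cancel, Matrix.SpecialLinearGroup.coe_one,
      Matrix.one_apply_eq, ha.2, one_mul] at h
    exact h.symm

theorem mem_UU {g : Matrix.SpecialLinearGroup (Fin n) F} :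
    g ∈ UU n F ↔ (∀ i j : Fin n, j < i → (g : Matrix (Fin n) (Fin n) F) i j = 0) ∧
      ∀ i : Fin n, (g : Matrix (Fin n) (Fin n) F) i i = 1 := Iff.rfl

/-- diagonal matrices in `SL_n`. -/
def TT (n : ℕ) (F : Type*) [Field F] : Subgroup (Matrix.SpecialLinearGroup (Fin n) F) where
  carrier := {g | ∀ i j : Fin n, i ≠ j → (g : Matrix (Fin n) (Fin n) F) i j = 0}
  mul_mem' := fun {a b} ha hb => by
    intro i j hij
    rw [Matrix.SpecialLinearGroup.coe_mul, Matrix.mul_apply]
    apply Finset.sum_eq_zero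
    intro k _
    by_cases hk : i = k
    · subst hk; rw [hb i j hij, mul_zero]
    · rw [ha i k hk, zero_mul]
  one_mem' := by
    intro i j hij
    rw [Matrix.SpecialLinearGroup.coe_one, Matrix.one_apply_ne hij]
  inv_mem' := fun {a} ha => by
    intro i j hij
    rcases lt_or_gt_of_ne hij with h | h
    · -- entry above the diagonal: use the transpose
      have h1 : ∀ i j : Fin n, j < i → ((a.transpose : Matrix.SpecialLinearGroup (Fin n) F) :
          Matrix (Fin n) (Fin n) F) i j = 0 := by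
        intro i j hij
        rw [Matrix.SpecialLinearGroup.coe_transpose, Matrix.transpose_apply]
        exact ha j i (ne_of_lt hij)
      have h2 := tri_inv a.transpose h1 j i h
      have e : ((a.transpose⁻¹ : Matrix.SpecialLinearGroup (Fin n) F) : Matrix (Fin n) (Fin n) F)
          = ((a⁻¹ : Matrix.SpecialLinearGroup (Fin n) F) : Matrix (Fin n) (Fin n) F)ᵀ := by
        rw [Matrix.SpecialLinearGroup.coe_inv, Matrix.SpecialLinearGroup.coe_inv,
          Matrix.SpecialLinearGroup.coe_transpose, Matrix.adjugate_transpose]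
      rw [e, Matrix.transpose_apply] at h2
      exact h2
    · exact tri_inv a (fun i j hij => ha i j (ne_of_gt hij)) i j h

theorem mem_TT {g : Matrix.SpecialLinearGroup (Fin n) F} :
    g ∈ TT n F ↔ ∀ i j : Fin n, i ≠ j → (g : Matrix (Fin n) (Fin n) F) i j = 0 := Iff.rfl

theorem UU_le_BB : UU n F ≤ BB n F := fun _ h => h.1

theorem TT_le_BB : TT n F ≤ BB n F := fun _ h i j hij => h i j (ne_of_gt hij)

/-- the Gelfand-Graev cell condition: every `g` lies in the big cell `U w0 B`, or some `x ∈ U` with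
`ψ x ≠ 1` is conjugated into `U` by `g`. -/
def Cell {G : Type*} [Group G] (U B : Subgroup G) (w0 : G) (ψ : U →* ℂ) : Prop :=
  ∀ g : G, (∃ u : U, ∃ b ∈ B, g = u * w0 * b) ∨ ∃ x : U, ψ x ≠ 1 ∧ g⁻¹ * x * g ∈ U

/-- the "radical" hypothesis: a `p`-regular element centralising a nontrivial radical `p`-subgroup
is central. -/
def RadHyp (p : ℕ) (G : Type*) [Group G] : Prop :=
  ∀ (x : G) (D : Subgroup G), ¬ p ∣ orderOf x → IsPGroup p D → D ≠ ⊥ → (∀ d ∈ D, d * x = x * d) →
    (∀ A : Subgroup G, IsPGroup p A → A ≤ Subgroup.normalizer (D : Set G) →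
      (∀ g ∈ Subgroup.normalizer (D : Set G), ∀ a ∈ A, g * a * g⁻¹ ∈ A) → A ≤ D) →
    x ∈ Subgroup.center G

/-- nondegenerate linear characters of `UU`. -/
def Nondeg (ψ : UU n F →* ℂ) : Prop :=
  ∀ i j : Fin n, i.val + 1 = j.val → ∃ (a : F) (u : UU n F),
    ((u : Matrix.SpecialLinearGroup (Fin n) F) : Matrix (Fin n) (Fin n) F) = Matrix.transvection i j a ∧
      ψ u ≠ 1

end Cfsg.Agent.Lib.Helper39.SLblk
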