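import Mathlib

set_option autoImplicit false

namespace Cfsg.Agent.Lib.Helper39.SLblk

open Module

variable {V : Type*} [AddCommGroup V] [Module ℂ V] [FiniteDimensional ℂ V]

/-- [G1] -/
theorem exists_common_eigenvector {ι : Type*} (r : ι → (V →ₗ[ℂ] V))
    (hc : ∀ s t, r s ∘ₗ r t = r t ∘ₗ r s) (E : Submodule ℂ V) (hE : E ≠ ⊥)
    (hst : ∀ t, ∀ y ∈ E, r t y ∈ E) : ∃ v ∈ E, v ≠ 0 ∧ ∀ t, ∃ c : ℂ, r t v = c • v := by
  induction' hk : finrank ℂ E using Nat.strong_induction_on with k ih generalizing E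
  by_cases hall : ∀ t, ∀ v ∈ E, ∃ c : ℂ, r t v = c • v
  · obtain ⟨v, hv, hv0⟩ := Submodule.exists_mem_ne_zero_of_ne_bot hE
    exact ⟨v, hv, hv0, fun t => hall t v hv⟩
  · push Not at hall
    obtain ⟨t0, w, hw, hnw⟩ := hall
    let f : E →ₗ[ℂ] E := (r t0).restrict (hst t0)
    have : Nontrivial E := Submodule.nontrivial_iff_ne_bot.2 hE
    obtain ⟨μ, hμ⟩ := Module.End.exists_eigenvalue f
    obtain ⟨x, hx⟩ := hμ.exists_hasEigenvector
    have hx1 : r t0 x.1 = μ • x.1 := by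
      have := hx.apply_eq_smul
      exact congrArg Subtype.val this
    have hx0 : x.1 ≠ 0 := fun h => hx.2 (Subtype.ext h)
    let E' : Submodule ℂ V := E ⊓ LinearMap.ker (r t0 - μ • LinearMap.id)
    have hmem : ∀ y, y ∈ E' ↔ y ∈ E ∧ r t0 y = μ • y := by
      intro y
      simp only [E', Submodule.mem_inf, LinearMap.mem_ker, LinearMap.sub_apply,
        LinearMap.smul_apply, LinearMap.id_apply, sub_eq_zero]
    have hE'ne : E' ≠ ⊥ := by
      intro h
      have : x.1 ∈ E' := (hmem _).2 ⟨x.2, hx1⟩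
      rw [h, Submodule.mem_bot] at this
      exact hx0 this
    have hE'lt : E' < E := by
      refine lt_of_le_of_ne inf_le_left ?_
      intro h
      have : w ∈ E' := h ▸ hw
      exact hnw μ ((hmem _).1 this).2
    have hst' : ∀ t, ∀ y ∈ E', r t y ∈ E' := by
      intro t y hy
      obtain ⟨hy1, hy2⟩ := (hmem _).1 hy
      refine (hmem _).2 ⟨hst t y hy1, ?_⟩
      have := LinearMap.congr_fun (hc t0 t) y
      simp only [LinearMap.comp_apply] at this
      rw [this, hy2, map_smul]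
    obtain ⟨v, hv, hv0, hv1⟩ := ih (finrank ℂ E') (hk ▸ Submodule.finrank_lt_finrank_of_lt hE'lt)
      E' hE'ne hst' rfl
    exact ⟨v, ((hmem _).1 hv).1, hv0, hv1⟩

end Cfsg.Agent.Lib.Helper39.SLblk
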