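import Cfsg.Agent.Lib.Helper39.SLblk.Base
import Cfsg.Prelude.Def_Blocks
import Cfsg.Prelude.Def_Solvable
import Cfsg.Agent.Lib.Helper16.DefectAPI
import Cfsg.Agent.Lib.Helper78.DefectZero
import Cfsg.Agent.S0914

set_option autoImplicit false

namespace Cfsg.Agent.Lib.Helper39.SLblk

open Cfsg Cfsg.Agent.Lib.Helper78

variable {G : Type*} [Group G] [Finite G]

namespace K1

theorem not_dvd_div_iff {p : ℕ} (hp : p.Prime) {d N : ℕ} (hN : N ≠ 0) (hd : d ∣ N) :
    ¬ p ∣ N / d ↔ N.factorization p ≤ d.factorization p := by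
  have hq : N / d ≠ 0 := by
    obtain ⟨k, rfl⟩ := hd
    have hd0 : d ≠ 0 := fun h => hN (by rw [h, zero_mul])
    have hk0 : k ≠ 0 := fun h => hN (by rw [h, mul_zero])
    rw [Nat.mul_div_cancel_left _ (Nat.pos_of_ne_zero hd0)]
    exact hk0
  rw [hp.dvd_iff_one_le_factorization hq, Nat.factorization_div hd]
  simp only [Finsupp.coe_tsub, Pi.sub_apply]
  omega

end K1

/-- [K1] -/
theorem card_defect_zero_blocks (p : ℕ) [Fact p.Prime] (M : Ideal AlgInt) (hM : IsPModular p M) :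
    Nat.card {B : Set (IrrCharacter G) // IsPBlock M B ∧ blockDefect p B = 0} =
      Nat.card {χ : IrrCharacter G // ¬ p ∣ Nat.card G / charDegree (χ : G → ℂ)} := by
  have hpp : p.Prime := Fact.out
  have hG0 : Nat.card G ≠ 0 := (Nat.card_pos (α := G)).ne'
  have hiff : ∀ χ : IrrCharacter G, ¬ p ∣ Nat.card G / charDegree (χ : G → ℂ) ↔
      (Nat.card G).factorization p ≤ (charDegree (χ : G → ℂ)).factorization p :=
    fun χ => K1.not_dvd_div_iff hpp hG0 (irr_charDegree_dvd_card χ)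
  symm
  refine Nat.card_congr (Equiv.ofBijective
    (fun χ : {χ : IrrCharacter G // ¬ p ∣ Nat.card G / charDegree (χ : G → ℂ)} =>
      (⟨blockOf M ((χ : IrrCharacter G) : G → ℂ), ⟨χ, rfl⟩, ?_⟩ :
        {B : Set (IrrCharacter G) // IsPBlock M B ∧ blockDefect p B = 0})) ⟨?_, ?_⟩)
  · rw [(Cfsg.Agent.S0914.result p M hM χ.1).mp χ.2]
    show (Nat.card G).factorization p -
      sInf ((fun χ : IrrCharacter G => (charDegree (χ : G → ℂ)).factorization p) '' {χ.1}) = 0
    rw [Set.image_singleton, csInf_singleton]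
    have := (hiff χ.1).mp χ.2
    omega
  · intro χ1 χ2 h
    have h1 : blockOf M ((χ1 : IrrCharacter G) : G → ℂ) = blockOf M ((χ2 : IrrCharacter G) : G → ℂ) :=
      congrArg Subtype.val h
    rw [(Cfsg.Agent.S0914.result p M hM χ1.1).mp χ1.2,
      (Cfsg.Agent.S0914.result p M hM χ2.1).mp χ2.2] at h1
    exact Subtype.ext (Set.singleton_injective h1)
  · rintro ⟨B, ⟨χ0, rfl⟩, hdef⟩
    have hmem : χ0 ∈ blockOf M (χ0 : G → ℂ) := mem_blockOf_self (pmod_isPrime hM) χ0
    have hdef' : (Nat.card G).factorization p -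
      sInf ((fun χ : IrrCharacter G => (charDegree (χ : G → ℂ)).factorization p) ''
        blockOf M (χ0 : G → ℂ)) = 0 := hdef
    have hle : sInf ((fun χ : IrrCharacter G => (charDegree (χ : G → ℂ)).factorization p) ''
        blockOf M (χ0 : G → ℂ)) ≤ (charDegree (χ0 : G → ℂ)).factorization p :=
      Nat.sInf_le ⟨χ0, hmem, rfl⟩
    exact ⟨⟨χ0, (hiff χ0).mpr (by omega)⟩, rfl⟩

end Cfsg.Agent.Lib.Helper39.SLblk
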