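import Cfsg.Agent.Lib.Helper39.SLblk.Base
import Cfsg.Prelude.Def_Blocks
import Cfsg.Prelude.Def_Solvable
import Cfsg.Agent.Lib.Helper16.DefectAPI
import Cfsg.Agent.S0908
import Cfsg.Agent.S0955
import Cfsg.Agent.S0956

set_option autoImplicit false

namespace Cfsg.Agent.Lib.Helper39.SLblk

open Cfsg Cfsg.Agent.Lib.Helper16

variable {G : Type*} [Group G] [Finite G]

namespace K2

/-- defect groups are radical, in the form used by `RadHyp` -/
theorem radical_of_defect (p : ℕ) [Fact p.Prime] (M : Ideal AlgInt) (hM : IsPModular p M)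
    (B : Set (IrrCharacter G)) (hB : IsPBlock M B) (D : Subgroup G) (hD : IsDefectGroup p M B D) :
    ∀ A : Subgroup G, IsPGroup p A → A ≤ Subgroup.normalizer (D : Set G) →
      (∀ g ∈ Subgroup.normalizer (D : Set G), ∀ a ∈ A, g * a * g⁻¹ ∈ A) → A ≤ D := by
  intro A hA hAN hnorm
  have h55 := Cfsg.Agent.S0955.result p M hM B hB D hD
  set N := Subgroup.normalizer (D : Set G) with hN
  have h1 : A.subgroupOf N ≤ pCore p N := by
    apply le_sSup
    refine ⟨⟨?_⟩, ?_⟩
    · intro a ha g
      rw [Subgroup.mem_subgroupOf] at ha ⊢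
      exact hnorm g g.2 a ha
    · exact hA.comap_of_injective _ N.subtype_injective
  rw [← h55, ← Subgroup.map_subgroupOf_eq_of_le hAN]
  exact Subgroup.map_mono h1

end K2

/-- [K2] -/
theorem defect_dichotomy (p : ℕ) [Fact p.Prime] (M : Ideal AlgInt) (hM : IsPModular p M)
    (hrad : RadHyp p G) (B : Set (IrrCharacter G)) (hB : IsPBlock M B) :
    blockDefect p B = 0 ∨ blockDefect p B = (Nat.card G).factorization p := by
  have hpp : p.Prime := Fact.out
  obtain ⟨D, hD⟩ := exists_isDefectGroup hM hB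
  have hcard := Cfsg.Agent.S0908.result p M hM B hB D hD
  have hDp : IsPGroup p D := IsDefectGroup.isPGroup hD
  obtain ⟨P, hDP⟩ := hDp.exists_le_sylow
  obtain ⟨x, hx, ⟨S, hS⟩, -⟩ := Cfsg.Agent.S0956.result p M hM B hB D hD P hDP
  obtain ⟨hle, hc⟩ := (sylow_image_iff (p := p) (Subgroup.centralizer ({x} : Set G)) D).mp ⟨S, hS.symm⟩
  by_cases hbot : D = ⊥
  · left
    rw [hbot, Subgroup.card_bot] at hcard
    by_contra h0
    have : 1 < p ^ blockDefect p B := Nat.one_lt_pow h0 hpp.one_lt
    omega
  · right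
    have hxc : x ∈ Subgroup.center G := by
      refine hrad x D hx hDp hbot ?_ (K2.radical_of_defect p M hM B hB D hD)
      intro d hd
      exact ((Subgroup.mem_centralizer_iff.mp (hle hd)) x rfl).symm
    have htop : Subgroup.centralizer ({x} : Set G) = ⊤ := by
      rw [eq_top_iff]
      intro g _
      rw [Subgroup.mem_centralizer_iff]
      intro h hh
      rw [Set.mem_singleton_iff] at hh
      rw [hh]
      exact ((Subgroup.mem_center_iff.mp hxc) g).symm
    rw [htop, Subgroup.card_top, hcard] at hc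
    exact Nat.pow_right_injective hpp.two_le hc

end Cfsg.Agent.Lib.Helper39.SLblk
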