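import Cfsg.Agent.Lib.Helper39.SLblk.Base
import Cfsg.Prelude.Def_Blocks
import Cfsg.Prelude.Def_Solvable
import Cfsg.Agent.S0953

set_option autoImplicit false

namespace Cfsg.Agent.Lib.Helper39.SLblk

open Cfsg

variable {G : Type*} [Group G] [Finite G]

/-- [K3] -/
theorem card_sylow_defect_blocks (p : ℕ) [Fact p.Prime] (M : Ideal AlgInt) (hM : IsPModular p M)
    (hrad : RadHyp p G) (hp : p ∣ Nat.card G) (hZ : ∀ z ∈ Subgroup.center G, ¬ p ∣ orderOf z)
    (P : Sylow p G) :
    Nat.card {B : Set (IrrCharacter G) // IsPBlock M B ∧ IsDefectGroup p M B (P : Subgroup G)} =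
      Nat.card (Subgroup.center G) := by
  rw [Cfsg.Agent.S0953.result p M hM P]
  set N := Subgroup.normalizer ((P : Subgroup G) : Set G) with hN
  have hcN : ∀ z ∈ Subgroup.center G, z ∈ N := by
    intro z hz
    rw [hN, Subgroup.mem_normalizer_iff]
    intro h
    have : z * h * z⁻¹ = h := by
      rw [← (Subgroup.mem_center_iff.mp hz) h]
      group
    rw [this]
  have hPbot : (P : Subgroup G) ≠ ⊥ := by
    intro h
    have h1 := P.card_eq_multiplicity
    rw [h, Subgroup.card_bot] at h1
    have hpp : p.Prime := Fact.out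
    have h2 : (Nat.card G).factorization p ≠ 0 := by
      have := (hpp.dvd_iff_one_le_factorization (Nat.card_pos (α := G)).ne').mp hp
      omega
    have : 1 < p ^ (Nat.card G).factorization p := Nat.one_lt_pow h2 hpp.one_lt
    omega
  -- a class containing a central element is a singleton
  have hconj : ∀ (z : G) (hz : z ∈ Subgroup.center G) (n : N),
      ConjClasses.mk n = ConjClasses.mk (⟨z, hcN z hz⟩ : N) → n = ⟨z, hcN z hz⟩ := by
    intro z hz n h
    rw [ConjClasses.mk_eq_mk_iff_isConj, isConj_comm, isConj_iff] at h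
    obtain ⟨c, hc⟩ := h
    rw [← hc]
    apply Subtype.ext
    show (c : G) * z * (c : G)⁻¹ = z
    rw [(Subgroup.mem_center_iff.mp hz) c]
    group
  symm
  refine Nat.card_congr (Equiv.ofBijective (fun z : Subgroup.center G =>
    (⟨ConjClasses.mk (⟨z, hcN z z.2⟩ : N), ?_⟩ : {C : ConjClasses N // ∀ n : N, ConjClasses.mk n = C →
      ¬ p ∣ orderOf n ∧ (n : G) ∈ Subgroup.centralizer ((P : Subgroup G) : Set G)})) ⟨?_, ?_⟩)
  · intro n hn
    rw [hconj z z.2 n hn]
    refine ⟨?_, ?_⟩
    · rw [← Subgroup.orderOf_coe]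
      exact hZ z z.2
    · rw [Subgroup.mem_centralizer_iff]
      intro h _
      exact (Subgroup.mem_center_iff.mp z.2) h
  · intro z1 z2 h
    have h1 := congrArg Subtype.val h
    have h2 := hconj z2 z2.2 _ h1
    exact Subtype.ext (congrArg (fun t : N => (t : G)) h2)
  · rintro ⟨C, hC⟩
    obtain ⟨n, rfl⟩ := ConjClasses.exists_rep C
    obtain ⟨hn1, hn2⟩ := hC n rfl
    have hnc : (n : G) ∈ Subgroup.center G := by
      refine hrad n P ?_ P.isPGroup' hPbot ?_ ?_
      · rw [Subgroup.orderOf_coe]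
        exact hn1
      · intro d hd
        exact (Subgroup.mem_centralizer_iff.mp hn2) d hd
      · intro A hA hAN _
        have h1 := hA.inf_normalizer_sylow P
        have h2 : A ⊓ Subgroup.normalizer ((P : Subgroup G) : Set G) = A := inf_eq_left.mpr hAN
        have h3 : A = A ⊓ (P : Subgroup G) := h2.symm.trans h1
        rw [h3]
        exact inf_le_right
    exact ⟨⟨n, hnc⟩, rfl⟩

end Cfsg.Agent.Lib.Helper39.SLblk
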