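import Cfsg.Agent.Lib.Helper39.SLblk.K1
import Cfsg.Agent.Lib.Helper39.SLblk.K2
import Cfsg.Agent.Lib.Helper39.SLblk.K3
import Cfsg.Agent.Lib.Helper16.SylowConj

set_option autoImplicit false

namespace Cfsg.Agent.Lib.Helper39.SLblk

open Cfsg Cfsg.Agent.Lib.Helper16

variable {G : Type*} [Group G] [Finite G]

/-- [K4] -/
theorem full_defect_iff (p : ℕ) [Fact p.Prime] (M : Ideal AlgInt) (hM : IsPModular p M)
    (B : Set (IrrCharacter G)) (hB : IsPBlock M B) (P : Sylow p G) :
    blockDefect p B = (Nat.card G).factorization p ↔ IsDefectGroup p M B (P : Subgroup G) := by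
  have hpp : p.Prime := Fact.out
  constructor
  · intro h
    obtain ⟨D, hD⟩ := exists_isDefectGroup hM hB
    have hcard := Cfsg.Agent.S0908.result p M hM B hB D hD
    rw [h] at hcard
    obtain ⟨u, -, hu⟩ := exists_conj_of_card_eq (p := p) (⊤ : Subgroup G) D (P : Subgroup G) le_top le_top
      (by rw [Subgroup.card_top]; exact hcard)
      (by rw [Subgroup.card_top]; exact P.card_eq_multiplicity)
    rw [← hu]
    exact IsDefectGroup.conj hD u
  · intro hD
    have hcard := Cfsg.Agent.S0908.result p M hM B hB _ hD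
    rw [P.card_eq_multiplicity] at hcard
    exact (Nat.pow_right_injective hpp.two_le hcard).symm

/-- [K5] -/
theorem card_blocks (p : ℕ) [Fact p.Prime] (M : Ideal AlgInt) (hM : IsPModular p M)
    (hrad : RadHyp p G) (hp : p ∣ Nat.card G) (hZ : ∀ z ∈ Subgroup.center G, ¬ p ∣ orderOf z) :
    Nat.card {B : Set (IrrCharacter G) // IsPBlock M B} =
      Nat.card {χ : IrrCharacter G // ¬ p ∣ Nat.card G / charDegree (χ : G → ℂ)} +
        Nat.card (Subgroup.center G) := by
  classical
  have hpp : p.Prime := Fact.out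
  let P : Sylow p G := default
  rw [← card_defect_zero_blocks p M hM, ← card_sylow_defect_blocks p M hM hrad hp hZ P]
  have hv : (Nat.card G).factorization p ≠ 0 := by
    have := (hpp.dvd_iff_one_le_factorization (Nat.card_pos (α := G)).ne').mp hp
    omega
  have hdisj : Disjoint (fun B : Set (IrrCharacter G) => IsPBlock M B ∧ blockDefect p B = 0)
      (fun B : Set (IrrCharacter G) => IsPBlock M B ∧ IsDefectGroup p M B (P : Subgroup G)) := by
    rw [Pi.disjoint_iff]
    intro B
    rw [Prop.disjoint_iff]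
    rintro ⟨⟨hB, h0⟩, -, hD⟩
    have := (full_defect_iff p M hM B hB P).mpr hD
    omega
  rw [← Nat.card_sum]
  refine Nat.card_congr (Equiv.trans ?_ (subtypeOrEquiv _ _ hdisj))
  refine Equiv.subtypeEquivRight ?_
  intro B
  constructor
  · intro hB
    rcases defect_dichotomy p M hM hrad B hB with h | h
    · left; exact ⟨hB, h⟩
    · right; exact ⟨hB, (full_defect_iff p M hM B hB P).mp h⟩
  · rintro (h | h)
    · exact h.1
    · exact h.1

end Cfsg.Agent.Lib.Helper39.SLblk
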