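import Cfsg.Agent.Lib.Helper39.SLblk.Base

set_option autoImplicit false

/-! # SLblk farm, pieces L1 and L2: fixed vectors of `p`-groups (helper91) -/

namespace Cfsg.Agent.Lib.Helper39.SLblk

open Matrix

variable {n : ℕ} {F : Type*} [Field F]

namespace L12

theorem exists_fixed_gen [Fintype F] (p : ℕ) [Fact p.Prime] [CharP F p] {G : Type*} [Group G]
    (hG : IsPGroup p G) (S : Submodule F (Fin n → F)) (hS : S ≠ ⊥) [MulAction G S]
    (h0 : ∀ g : G, g • (0 : S) = 0) : ∃ v : S, v ≠ 0 ∧ ∀ g : G, g • v = v := by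
  have hpF : p ∣ Nat.card F := by
    rw [Nat.card_eq_fintype_card, ← CharP.cast_eq_zero_iff F p]
    exact Nat.cast_card_eq_zero F
  have hpos : 0 < Module.finrank F S := by
    rw [Module.finrank_pos_iff]
    exact Submodule.nontrivial_iff_ne_bot.2 hS
  have hp : p ∣ Nat.card S := by
    rw [Module.natCard_eq_pow_finrank (K := F) (V := S)]
    exact dvd_pow hpF hpos.ne'
  obtain ⟨b, hb, hne⟩ := hG.exists_fixed_point_of_prime_dvd_card_of_fixed_point S hp
    (a := 0) (fun g => h0 g)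
  exact ⟨b, hne.symm, hb⟩

end L12

/-- [L1] fixed vectors of `p`-groups, column version -/
theorem exists_fixed_col [Fintype F] (p : ℕ) [Fact p.Prime] [CharP F p]
    (D : Subgroup (Matrix.SpecialLinearGroup (Fin n) F)) (hD : IsPGroup p D)
    (S : Submodule F (Fin n → F)) (hS : S ≠ ⊥)
    (hst : ∀ d ∈ D, ∀ v ∈ S, (d : Matrix (Fin n) (Fin n) F) *ᵥ v ∈ S) :
    ∃ v ∈ S, v ≠ 0 ∧ ∀ d ∈ D, (d : Matrix (Fin n) (Fin n) F) *ᵥ v = v := by
  let _ : MulAction D S :=
    { smul := fun d v => ⟨((d : Matrix.SpecialLinearGroup (Fin n) F) : Matrix (Fin n) (Fin n) F) *ᵥ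
        (v : Fin n → F), hst d d.2 v v.2⟩
      one_smul := fun v => Subtype.ext (by
        show (((1 : D) : Matrix.SpecialLinearGroup (Fin n) F) : Matrix (Fin n) (Fin n) F) *ᵥ
          (v : Fin n → F) = v
        rw [Subgroup.coe_one, Matrix.SpecialLinearGroup.coe_one, Matrix.one_mulVec])
      mul_smul := fun a b v => Subtype.ext (by
        show (((a * b : D) : Matrix.SpecialLinearGroup (Fin n) F) : Matrix (Fin n) (Fin n) F) *ᵥ
          (v : Fin n → F) = ((a : Matrix.SpecialLinearGroup (Fin n) F) : Matrix (Fin n) (Fin n) F) *ᵥ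
            (((b : Matrix.SpecialLinearGroup (Fin n) F) : Matrix (Fin n) (Fin n) F) *ᵥ
              (v : Fin n → F))
        rw [Subgroup.coe_mul, Matrix.SpecialLinearGroup.coe_mul, Matrix.mulVec_mulVec]) }
  obtain ⟨v, hv0, hv⟩ := L12.exists_fixed_gen p hD S hS (fun g => Subtype.ext (by
    show ((g : Matrix.SpecialLinearGroup (Fin n) F) : Matrix (Fin n) (Fin n) F) *ᵥ
      (0 : Fin n → F) = 0
    rw [Matrix.mulVec_zero]))
  refine ⟨v, v.2, fun h => hv0 (Subtype.ext h), fun d hd => ?_⟩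
  exact congrArg Subtype.val (hv ⟨d, hd⟩)

/-- [L2] fixed vectors of `p`-groups, row version -/
theorem exists_fixed_row [Fintype F] (p : ℕ) [Fact p.Prime] [CharP F p]
    (D : Subgroup (Matrix.SpecialLinearGroup (Fin n) F)) (hD : IsPGroup p D)
    (S : Submodule F (Fin n → F)) (hS : S ≠ ⊥)
    (hst : ∀ d ∈ D, ∀ f ∈ S, f ᵥ* (d : Matrix (Fin n) (Fin n) F) ∈ S) :
    ∃ f ∈ S, f ≠ 0 ∧ ∀ d ∈ D, f ᵥ* (d : Matrix (Fin n) (Fin n) F) = f := by
  let _ : MulAction D S :=
    { smul := fun d v => ⟨(v : Fin n → F) ᵥ*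
        (((d⁻¹ : D) : Matrix.SpecialLinearGroup (Fin n) F) : Matrix (Fin n) (Fin n) F),
          hst _ (d⁻¹).2 v v.2⟩
      one_smul := fun v => Subtype.ext (by
        show (v : Fin n → F) ᵥ*
          ((((1 : D)⁻¹ : D) : Matrix.SpecialLinearGroup (Fin n) F) : Matrix (Fin n) (Fin n) F) = v
        rw [inv_one, Subgroup.coe_one, Matrix.SpecialLinearGroup.coe_one, Matrix.vecMul_one])
      mul_smul := fun a b v => Subtype.ext (by
        show (v : Fin n → F) ᵥ*
          ((((a * b)⁻¹ : D) : Matrix.SpecialLinearGroup (Fin n) F) : Matrix (Fin n) (Fin n) F) =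
          ((v : Fin n → F) ᵥ*
            (((b⁻¹ : D) : Matrix.SpecialLinearGroup (Fin n) F) : Matrix (Fin n) (Fin n) F)) ᵥ*
            (((a⁻¹ : D) : Matrix.SpecialLinearGroup (Fin n) F) : Matrix (Fin n) (Fin n) F)
        rw [_root_.mul_inv_rev, Subgroup.coe_mul, Matrix.SpecialLinearGroup.coe_mul,
          Matrix.vecMul_vecMul]) }
  obtain ⟨v, hv0, hv⟩ := L12.exists_fixed_gen p hD S hS (fun g => Subtype.ext (by
    show (0 : Fin n → F) ᵥ*
      (((g⁻¹ : D) : Matrix.SpecialLinearGroup (Fin n) F) : Matrix (Fin n) (Fin n) F) = 0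
    rw [Matrix.zero_vecMul]))
  refine ⟨v, v.2, fun h => hv0 (Subtype.ext h), fun d hd => ?_⟩
  have h1 := congrArg Subtype.val (hv (⟨d, hd⟩ : D)⁻¹)
  have h2 : (v : Fin n → F) ᵥ* (((((⟨d, hd⟩ : D)⁻¹)⁻¹ : D) :
      Matrix.SpecialLinearGroup (Fin n) F) : Matrix (Fin n) (Fin n) F) = v := h1
  rw [inv_inv] at h2
  exact h2

end Cfsg.Agent.Lib.Helper39.SLblk
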