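import Cfsg.Agent.Lib.Helper39.SLblk.L12

set_option autoImplicit false

/-! # SLblk farm, piece L3 (helper91) -/

namespace Cfsg.Agent.Lib.Helper39.SLblk

open Matrix

variable {n : ℕ} {F : Type*} [Field F]

/-- [L3] a `p'`-element which is scalar on the fixed space of a commuting `p`-group is scalar -/
theorem scalar_of_scalar_on_fixed [Fintype F] (p : ℕ) [Fact p.Prime] [CharP F p]
    (x : Matrix.SpecialLinearGroup (Fin n) F) (hx : ¬ p ∣ orderOf x)
    (D : Subgroup (Matrix.SpecialLinearGroup (Fin n) F)) (hD : IsPGroup p D)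
    (hcomm : ∀ d ∈ D, d * x = x * d) (μ : F)
    (hμ : ∀ v : Fin n → F, (∀ d ∈ D, (d : Matrix (Fin n) (Fin n) F) *ᵥ v = v) →
      (x : Matrix (Fin n) (Fin n) F) *ᵥ v = μ • v) :
    (x : Matrix (Fin n) (Fin n) F) = μ • (1 : Matrix (Fin n) (Fin n) F) := by
  obtain ⟨X, hX⟩ : ∃ X : Matrix (Fin n) (Fin n) F, X = (x : Matrix (Fin n) (Fin n) F) := ⟨_, rfl⟩
  rw [← hX] at hμ ⊢
  by_contra hne
  obtain ⟨N, hN⟩ : ∃ N : Matrix (Fin n) (Fin n) F, N = X - μ • 1 := ⟨_, rfl⟩
  have hN0 : N ≠ 0 := by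
    intro h
    apply hne
    rw [hN] at h
    exact sub_eq_zero.1 h
  have hNv : ∀ v, N *ᵥ v = X *ᵥ v - μ • v := by
    intro v
    rw [hN, Matrix.sub_mulVec, Matrix.smul_mulVec, Matrix.one_mulVec]
  have hdX : ∀ d ∈ D, (d : Matrix (Fin n) (Fin n) F) * X = X * (d : Matrix (Fin n) (Fin n) F) := by
    intro d hd
    rw [hX, ← Matrix.SpecialLinearGroup.coe_mul, ← Matrix.SpecialLinearGroup.coe_mul, hcomm d hd]
  have hS : LinearMap.range (Matrix.toLin' N) ≠ ⊥ := by
    intro h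
    apply hN0
    rw [LinearMap.range_eq_bot] at h
    exact (Matrix.toLin' : Matrix (Fin n) (Fin n) F ≃ₗ[F] _).injective (by rw [h, map_zero])
  obtain ⟨u, ⟨v, hvu⟩, hu0, hufix⟩ := exists_fixed_col p D hD _ hS (by
    rintro d hd _ ⟨w, rfl⟩
    refine ⟨(d : Matrix (Fin n) (Fin n) F) *ᵥ w, ?_⟩
    rw [Matrix.toLin'_apply, Matrix.toLin'_apply, hNv, hNv, Matrix.mulVec_sub, Matrix.mulVec_smul,
      Matrix.mulVec_mulVec, Matrix.mulVec_mulVec, hdX d hd])
  rw [Matrix.toLin'_apply, hNv] at hvu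
  have hXu : X *ᵥ u = μ • u := hμ u hufix
  have hXv : X *ᵥ v = μ • v + u := by rw [← hvu]; abel
  have hpowu : ∀ j : ℕ, (X ^ j) *ᵥ u = μ ^ j • u := by
    intro j
    induction j with
    | zero => simp
    | succ j ih =>
      rw [pow_succ', ← Matrix.mulVec_mulVec, ih, Matrix.mulVec_smul, hXu, smul_smul, pow_succ]
  have hk : X ^ orderOf x = 1 := by
    rw [hX, ← Matrix.SpecialLinearGroup.coe_pow, pow_orderOf_eq_one, Matrix.SpecialLinearGroup.coe_one]
  have hkpos : 0 < orderOf x := orderOf_pos x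
  have hμk : μ ^ orderOf x = 1 := by
    have h1 := hpowu (orderOf x)
    rw [hk, Matrix.one_mulVec] at h1
    have h2 : (μ ^ orderOf x - 1) • u = 0 := by rw [sub_smul, one_smul, ← h1, sub_self]
    rcases smul_eq_zero.1 h2 with h | h
    · exact sub_eq_zero.1 h
    · exact absurd h hu0
  have hμ0 : μ ≠ 0 := by
    rintro rfl
    rw [zero_pow hkpos.ne'] at hμk
    exact zero_ne_one hμk
  have hpowv : ∀ j : ℕ, (X ^ j) *ᵥ v = μ ^ j • v + ((j : F) * μ ^ j * μ⁻¹) • u := by
    intro j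
    induction j with
    | zero => simp
    | succ j ih =>
      rw [pow_succ', ← Matrix.mulVec_mulVec, ih, Matrix.mulVec_add, Matrix.mulVec_smul,
        Matrix.mulVec_smul, hXu, hXv, smul_add, smul_smul, smul_smul, add_assoc, ← add_smul]
      congr 2
      · rw [pow_succ]
      · push_cast
        field_simp
        ring
  have h1 := hpowv (orderOf x)
  rw [hk, Matrix.one_mulVec, hμk, one_smul, left_eq_add] at h1
  rcases smul_eq_zero.1 h1 with h | h
  · rw [mul_one] at h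
    rcases mul_eq_zero.1 h with h' | h'
    · exact hx ((CharP.cast_eq_zero_iff F p _).1 h')
    · exact inv_ne_zero hμ0 h'
  · exact hu0 h

end Cfsg.Agent.Lib.Helper39.SLblk
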