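import Cfsg.Agent.Lib.Helper39.SLblk.Base

set_option autoImplicit false

/-! # SLblk farm, piece L4 (helper91) -/

namespace Cfsg.Agent.Lib.Helper39.SLblk

open Matrix Cfsg.Agent.Lib.Helper39.SLmin

variable {n : ℕ} {F : Type*} [Field F]

namespace L4

/-- `w` is fixed by `D` -/
def Fx (D : Subgroup (Matrix.SpecialLinearGroup (Fin n) F)) (w : Fin n → F) : Prop :=
  ∀ d ∈ D, (d : Matrix (Fin n) (Fin n) F) *ᵥ w = w

theorem Fx.add {D : Subgroup (Matrix.SpecialLinearGroup (Fin n) F)} {w w' : Fin n → F}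
    (h : Fx D w) (h' : Fx D w') : Fx D (w + w') := by
  intro d hd
  rw [Matrix.mulVec_add, h d hd, h' d hd]

theorem Fx.neg {D : Subgroup (Matrix.SpecialLinearGroup (Fin n) F)} {w : Fin n → F}
    (h : Fx D w) : Fx D (-w) := by
  intro d hd
  rw [Matrix.mulVec_neg, h d hd]

theorem Fx.smul {D : Subgroup (Matrix.SpecialLinearGroup (Fin n) F)} {w : Fin n → F}
    (h : Fx D w) (c : F) : Fx D (c • w) := by
  intro d hd
  rw [Matrix.mulVec_smul, h d hd]

theorem inv_mulVec (g : Matrix.SpecialLinearGroup (Fin n) F) (w : Fin n → F) :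
    ((g⁻¹ : Matrix.SpecialLinearGroup (Fin n) F) : Matrix (Fin n) (Fin n) F) *ᵥ
      ((g : Matrix (Fin n) (Fin n) F) *ᵥ w) = w := by
  rw [Matrix.mulVec_mulVec, ← Matrix.SpecialLinearGroup.coe_mul, inv_mul_cancel,
    Matrix.SpecialLinearGroup.coe_one, Matrix.one_mulVec]

theorem mulVec_inv (g : Matrix.SpecialLinearGroup (Fin n) F) (w : Fin n → F) :
    (g : Matrix (Fin n) (Fin n) F) *ᵥ
      (((g⁻¹ : Matrix.SpecialLinearGroup (Fin n) F) : Matrix (Fin n) (Fin n) F) *ᵥ w) = w := by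
  rw [Matrix.mulVec_mulVec, ← Matrix.SpecialLinearGroup.coe_mul, mul_inv_cancel,
    Matrix.SpecialLinearGroup.coe_one, Matrix.one_mulVec]

/-- the subgroup `A₀` -/
def A0 (D : Subgroup (Matrix.SpecialLinearGroup (Fin n) F)) :
    Subgroup (Matrix.SpecialLinearGroup (Fin n) F) where
  carrier := {g | (∀ d ∈ D, g * d = d * g) ∧
    (∀ w, Fx D w → (g : Matrix (Fin n) (Fin n) F) *ᵥ w = w) ∧
    ∀ w, Fx D ((g : Matrix (Fin n) (Fin n) F) *ᵥ w - w)}
  one_mem' := by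
    refine ⟨fun d _ => by rw [one_mul, mul_one], fun w _ => ?_, fun w => ?_⟩
    · rw [Matrix.SpecialLinearGroup.coe_one, Matrix.one_mulVec]
    · rw [Matrix.SpecialLinearGroup.coe_one, Matrix.one_mulVec, sub_self]
      intro d _
      rw [Matrix.mulVec_zero]
  mul_mem' := by
    rintro a b ⟨ha1, ha2, ha3⟩ ⟨hb1, hb2, hb3⟩
    refine ⟨fun d hd => ?_, fun w hw => ?_, fun w => ?_⟩
    · rw [mul_assoc, hb1 d hd, ← mul_assoc, ha1 d hd, mul_assoc]
    · rw [Matrix.SpecialLinearGroup.coe_mul, ← Matrix.mulVec_mulVec, hb2 w hw, ha2 w hw]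
    · rw [Matrix.SpecialLinearGroup.coe_mul, ← Matrix.mulVec_mulVec]
      have h1 := (ha3 ((b : Matrix (Fin n) (Fin n) F) *ᵥ w)).add (hb3 w)
      rwa [sub_add_sub_cancel] at h1
  inv_mem' := by
    rintro a ⟨ha1, ha2, ha3⟩
    refine ⟨fun d hd => ?_, fun w hw => ?_, fun w => ?_⟩
    · rw [inv_mul_eq_iff_eq_mul, ← mul_assoc, ha1 d hd, mul_assoc, mul_inv_cancel, mul_one]
    · conv_lhs => rw [← ha2 w hw]
      exact inv_mulVec a w
    · -- `a⁻¹ w - w = -(a w' - w')` with `w' = a⁻¹ w`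
      have h1 := (ha3 (((a⁻¹ : Matrix.SpecialLinearGroup (Fin n) F) :
        Matrix (Fin n) (Fin n) F) *ᵥ w)).neg
      rwa [mulVec_inv, neg_sub] at h1

theorem mem_A0 {D : Subgroup (Matrix.SpecialLinearGroup (Fin n) F)}
    {g : Matrix.SpecialLinearGroup (Fin n) F} : g ∈ A0 D ↔ (∀ d ∈ D, g * d = d * g) ∧
    (∀ w, Fx D w → (g : Matrix (Fin n) (Fin n) F) *ᵥ w = w) ∧
    ∀ w, Fx D ((g : Matrix (Fin n) (Fin n) F) *ᵥ w - w) := Iff.rfl

theorem pow_p_eq_one (p : ℕ) [Fact p.Prime] [CharP F p]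
    {D : Subgroup (Matrix.SpecialLinearGroup (Fin n) F)}
    {g : Matrix.SpecialLinearGroup (Fin n) F} (hg : g ∈ A0 D) : g ^ p = 1 := by
  obtain ⟨-, h2, h3⟩ := hg
  obtain ⟨M, hM⟩ : ∃ M : Matrix (Fin n) (Fin n) F, M = (g : Matrix (Fin n) (Fin n) F) - 1 :=
    ⟨_, rfl⟩
  have hMM : M * M = 0 := by
    apply (Matrix.toLin' : Matrix (Fin n) (Fin n) F ≃ₗ[F] _).injective
    apply LinearMap.ext
    intro w
    rw [Matrix.toLin'_apply, map_zero, LinearMap.zero_apply, ← Matrix.mulVec_mulVec]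
    have e : ∀ w, M *ᵥ w = (g : Matrix (Fin n) (Fin n) F) *ᵥ w - w := by
      intro w
      rw [hM, Matrix.sub_mulVec, Matrix.one_mulVec]
    rw [e w, e, h2 _ (h3 w), sub_self]
  have hp2 : 2 ≤ p := (Fact.out : p.Prime).two_le
  have hMp : M ^ p = 0 := by
    obtain ⟨k, rfl⟩ := Nat.exists_eq_add_of_le hp2
    rw [pow_add, pow_two, hMM, zero_mul]
  apply sl_ext
  have : CharP (Matrix (Fin n) (Fin n) F) p ∨ IsEmpty (Fin n) := by
    rcases isEmpty_or_nonempty (Fin n) with h | h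
    · exact Or.inr h
    · exact Or.inl inferInstance
  rcases this with hch | hemp
  · rw [Matrix.SpecialLinearGroup.coe_pow, Matrix.SpecialLinearGroup.coe_one]
    have hg' : (g : Matrix (Fin n) (Fin n) F) = M + 1 := by rw [hM]; abel
    rw [hg', add_pow_char_of_commute _ (Commute.one_right M), hMp, one_pow, zero_add]
  · exact Subsingleton.elim _ _

end L4

open L4 in
/-- [L4] the subgroup `A₀` -/
theorem tv_mem_of_radical [Fintype F] (p : ℕ) [Fact p.Prime] [CharP F p]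
    (D : Subgroup (Matrix.SpecialLinearGroup (Fin n) F))
    (hrad : ∀ A : Subgroup (Matrix.SpecialLinearGroup (Fin n) F), IsPGroup p A →
      A ≤ Subgroup.normalizer (D : Set (Matrix.SpecialLinearGroup (Fin n) F)) →
      (∀ g ∈ Subgroup.normalizer (D : Set (Matrix.SpecialLinearGroup (Fin n) F)), ∀ a ∈ A,
        g * a * g⁻¹ ∈ A) → A ≤ D)
    (v f : Fin n → F) (hv : ∀ d ∈ D, (d : Matrix (Fin n) (Fin n) F) *ᵥ v = v)
    (hf : ∀ d ∈ D, f ᵥ* (d : Matrix (Fin n) (Fin n) F) = f)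
    (hfX : ∀ w : Fin n → F, (∀ d ∈ D, (d : Matrix (Fin n) (Fin n) F) *ᵥ w = w) → f ⬝ᵥ w = 0) :
    tv v f ∈ D := by
  have hfv : f ⬝ᵥ v = 0 := hfX v hv
  apply hrad (A0 D)
  · intro g
    refine ⟨1, ?_⟩
    rw [pow_one]
    exact Subtype.ext (pow_p_eq_one p g.2)
  · intro g hg
    rw [Subgroup.mem_normalizer_iff]
    intro d
    constructor
    · intro hd
      rw [hg.1 d hd, mul_inv_cancel_right]
      exact hd
    · intro hd
      have h1 := hg.1 _ hd
      have h2 : g * d * g⁻¹ = d := by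
        have h3 : g * (g * d * g⁻¹) = g * d := by rw [h1]; group
        exact mul_left_cancel h3
      rwa [h2] at hd
  · intro g hg a ha
    rw [Subgroup.mem_normalizer_iff] at hg
    -- `g⁻¹ d g ∈ D`
    have hconj : ∀ d ∈ D, g⁻¹ * d * g ∈ D := by
      intro d hd
      rw [hg (g⁻¹ * d * g)]
      have e : g * (g⁻¹ * d * g) * g⁻¹ = d := by group
      rw [e]; exact hd
    have hconj' : ∀ d ∈ D, g * d * g⁻¹ ∈ D := fun d hd => (hg d).1 hd
    have hFg : ∀ w, Fx D w → Fx D ((g : Matrix (Fin n) (Fin n) F) *ᵥ w) := by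
      intro w hw d hd
      have h1 := hw _ (hconj d hd)
      have e : d * g = g * (g⁻¹ * d * g) := by group
      rw [Matrix.mulVec_mulVec, ← Matrix.SpecialLinearGroup.coe_mul, e,
        Matrix.SpecialLinearGroup.coe_mul, ← Matrix.mulVec_mulVec, h1]
    have hFg' : ∀ w, Fx D w → Fx D (((g⁻¹ : Matrix.SpecialLinearGroup (Fin n) F) :
        Matrix (Fin n) (Fin n) F) *ᵥ w) := by
      intro w hw d hd
      have h1 := hw _ (hconj' d hd)
      have e : d * g⁻¹ = g⁻¹ * (g * d * g⁻¹) := by group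
      rw [Matrix.mulVec_mulVec, ← Matrix.SpecialLinearGroup.coe_mul, e,
        Matrix.SpecialLinearGroup.coe_mul, ← Matrix.mulVec_mulVec, h1]
    obtain ⟨ha1, ha2, ha3⟩ := ha
    refine ⟨fun d hd => ?_, fun w hw => ?_, fun w => ?_⟩
    · have h1 := ha1 _ (hconj d hd)
      calc g * a * g⁻¹ * d = g * (a * (g⁻¹ * d * g)) * g⁻¹ := by group
        _ = g * ((g⁻¹ * d * g) * a) * g⁻¹ := by rw [h1]
        _ = d * (g * a * g⁻¹) := by group
    · rw [Matrix.SpecialLinearGroup.coe_mul, Matrix.SpecialLinearGroup.coe_mul,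
        ← Matrix.mulVec_mulVec, ← Matrix.mulVec_mulVec, ha2 _ (hFg' w hw), mulVec_inv]
    · have h1 := hFg _ (ha3 (((g⁻¹ : Matrix.SpecialLinearGroup (Fin n) F) :
        Matrix (Fin n) (Fin n) F) *ᵥ w))
      rw [Matrix.mulVec_sub, mulVec_inv] at h1
      rw [Matrix.SpecialLinearGroup.coe_mul, Matrix.SpecialLinearGroup.coe_mul,
        ← Matrix.mulVec_mulVec, ← Matrix.mulVec_mulVec]
      exact h1
  · refine ⟨fun d hd => ?_, fun w hw => ?_, fun w => ?_⟩
    · have h1 := conj_tv d d⁻¹ (mul_inv_cancel d) hfv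
      rw [hv d hd, hf _ (D.inv_mem hd)] at h1
      calc tv v f * d = (d * tv v f * d⁻¹) * d := by rw [h1]
        _ = d * tv v f := by group
    · rw [tv_mulVec hfv, hfX w hw, zero_smul, add_zero]
    · rw [tv_mulVec hfv, add_sub_cancel_left]
      exact Fx.smul hv _

end Cfsg.Agent.Lib.Helper39.SLblk
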