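import Cfsg.Agent.Lib.Helper39.SLblk.L12
import Cfsg.Agent.Lib.Helper39.SLblk.L3
import Cfsg.Agent.Lib.Helper39.SLblk.L4

set_option autoImplicit false

/-! # SLblk farm, piece L5 (helper91) -/

namespace Cfsg.Agent.Lib.Helper39.SLblk

open Matrix Cfsg.Agent.Lib.Helper39.SLmin

variable {n : ℕ} {F : Type*} [Field F]

namespace L5

/-- the fixed space of `D` -/
def fixSp (D : Subgroup (Matrix.SpecialLinearGroup (Fin n) F)) : Submodule F (Fin n → F) where
  carrier := {w | ∀ d ∈ D, (d : Matrix (Fin n) (Fin n) F) *ᵥ w = w}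
  zero_mem' := fun d _ => Matrix.mulVec_zero _
  add_mem' := fun {a b} ha hb d hd => by rw [Matrix.mulVec_add, ha d hd, hb d hd]
  smul_mem' := fun c a ha d hd => by rw [Matrix.mulVec_smul, ha d hd]

/-- the annihilator of a subspace, in row vectors -/
def annSp (X : Submodule F (Fin n → F)) : Submodule F (Fin n → F) where
  carrier := {f | ∀ w ∈ X, f ⬝ᵥ w = 0}
  zero_mem' := fun w _ => zero_dotProduct w
  add_mem' := fun {a b} ha hb w hw => by rw [add_dotProduct, ha w hw, hb w hw, add_zero]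
  smul_mem' := fun c a ha w hw => by rw [smul_dotProduct, ha w hw, smul_zero]

theorem annSp_ne_bot {X : Submodule F (Fin n → F)} (hX : X ≠ ⊤) : annSp X ≠ ⊥ := by
  obtain ⟨φ, hφ0, hφ⟩ := Submodule.exists_le_ker_of_lt_top X (lt_top_iff_ne_top.2 hX)
  have hrep : ∀ w, φ w = (fun i => φ (Pi.single i 1)) ⬝ᵥ w := by
    intro w
    rw [LinearMap.pi_apply_eq_sum_univ φ w]
    simp only [dotProduct, smul_eq_mul]
    refine Finset.sum_congr rfl fun i _ => ?_
    rw [mul_comm]
    congr 2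
    ext j
    simp [Pi.single_apply, eq_comm]
  intro hbot
  have hmem : (fun i => φ (Pi.single i 1)) ∈ annSp X := by
    intro w hw
    rw [← hrep]
    exact hφ hw
  rw [hbot, Submodule.mem_bot] at hmem
  apply hφ0
  apply LinearMap.ext
  intro w
  rw [hrep, hmem, zero_dotProduct, LinearMap.zero_apply]

end L5

open L5 in
/-- [L5] -/
theorem radHyp_SL [Fintype F] (p : ℕ) [Fact p.Prime] [CharP F p] :
    RadHyp p (Matrix.SpecialLinearGroup (Fin n) F) := by
  intro x D hx hD hDne hcomm hrad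
  -- the fixed space is proper
  have hXtop : fixSp D ≠ ⊤ := by
    intro htop
    apply hDne
    rw [eq_bot_iff]
    intro d hd
    rw [Subgroup.mem_bot]
    apply sl_ext
    rw [Matrix.SpecialLinearGroup.coe_one]
    apply (Matrix.toLin' : Matrix (Fin n) (Fin n) F ≃ₗ[F] _).injective
    apply LinearMap.ext
    intro w
    have hw : w ∈ fixSp D := by rw [htop]; trivial
    rw [Matrix.toLin'_apply, Matrix.toLin'_apply, Matrix.one_mulVec]
    exact hw d hd
  have htb : (⊤ : Submodule F (Fin n → F)) ≠ ⊥ := by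
    intro h
    apply hXtop
    rw [h, eq_bot_iff, ← h]
    exact le_top
  obtain ⟨v₀, -, hv₀0, hv₀⟩ := exists_fixed_col p D hD ⊤ htb (fun _ _ _ _ => trivial)
  obtain ⟨f₀, hf₀X, hf₀0, hf₀⟩ := exists_fixed_row p D hD (annSp (fixSp D)) (annSp_ne_bot hXtop) (by
    intro d hd f hf w hw
    rw [← Matrix.dotProduct_mulVec, hw d hd]
    exact hf w hw)
  obtain ⟨k, hk⟩ : ∃ k, f₀ k ≠ 0 := by
    by_contra hcon
    push Not at hcon
    exact hf₀0 (funext hcon)
  obtain ⟨c, hc⟩ : ∃ c : F, c = (f₀ ᵥ* ((x⁻¹ : Matrix.SpecialLinearGroup (Fin n) F) :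
    Matrix (Fin n) (Fin n) F)) k / f₀ k := ⟨_, rfl⟩
  have key : ∀ v, (∀ d ∈ D, (d : Matrix (Fin n) (Fin n) F) *ᵥ v = v) →
      v = c • ((x : Matrix (Fin n) (Fin n) F) *ᵥ v) := by
    intro v hv
    have hfv : f₀ ⬝ᵥ v = 0 := hf₀X v hv
    have hmem := tv_mem_of_radical p D hrad v f₀ hv hf₀ (fun w hw => hf₀X w hw)
    have h1 := hcomm _ hmem
    have h2 := conj_tv x x⁻¹ (mul_inv_cancel x) hfv
    have h3 : x * tv v f₀ * x⁻¹ = tv v f₀ := by rw [← h1, mul_inv_cancel_right]
    rw [h3] at h2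
    have hfv' : (f₀ ᵥ* ((x⁻¹ : Matrix.SpecialLinearGroup (Fin n) F) :
        Matrix (Fin n) (Fin n) F)) ⬝ᵥ ((x : Matrix (Fin n) (Fin n) F) *ᵥ v) = 0 := by
      rw [Matrix.dotProduct_mulVec, Matrix.vecMul_vecMul, ← Matrix.SpecialLinearGroup.coe_mul,
        inv_mul_cancel, Matrix.SpecialLinearGroup.coe_one, Matrix.vecMul_one, hfv]
    have h4 := sl_coe_congr h2
    rw [tv_coe hfv, tv_coe hfv', add_right_inj] at h4
    ext i
    have h5 := congrFun (congrFun h4 i) k
    rw [Matrix.vecMulVec_apply, Matrix.vecMulVec_apply] at h5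
    rw [Pi.smul_apply, smul_eq_mul, hc]
    field_simp
    rw [h5]; ring
  have hc0 : c ≠ 0 := by
    rintro rfl
    apply hv₀0
    rw [key v₀ hv₀, zero_smul]
  have hscal := scalar_of_scalar_on_fixed p x hx D hD hcomm c⁻¹ (by
    intro v hv
    conv_rhs => rw [key v hv]
    rw [smul_smul, inv_mul_cancel₀ hc0, one_smul])
  rw [Subgroup.mem_center_iff]
  intro g
  apply sl_ext
  rw [Matrix.SpecialLinearGroup.coe_mul, Matrix.SpecialLinearGroup.coe_mul, hscal,
    Matrix.mul_smul, Matrix.smul_mul, Matrix.mul_one, Matrix.one_mul]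

end Cfsg.Agent.Lib.Helper39.SLblk
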