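import Cfsg.Agent.Lib.Helper39.SLblk.Base
import Cfsg.Agent.Lib.Helper39.Stbg.Bruhat

set_option autoImplicit false

/-! # Blocks of `SL_n(q)`: piece S2a (Bruhat decomposition in `SL_n`) -/

namespace Cfsg.Agent.Lib.Helper39.SLblk

open Matrix

variable {n : ℕ} {F : Type*} [Field F]

namespace S2a

theorem borel_tri {b : GL (Fin n) F} (hb : b ∈ Stbg.borel F n) (i j : Fin n) (hij : j < i) :
    b.1 i j = 0 := hb hij

theorem borel_diag_ne_zero {b : GL (Fin n) F} (hb : b ∈ Stbg.borel F n) (i : Fin n) :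
    b.1 i i ≠ 0 := by
  have hbt : b.1.BlockTriangular id := fun i j hij => borel_tri hb i j hij
  have hdet : b.1.det ≠ 0 := ((Matrix.isUnit_iff_isUnit_det _).1 b.isUnit).ne_zero
  rw [Matrix.det_of_isUpperTriangular hbt] at hdet
  exact (Finset.prod_ne_zero_iff.1 hdet) i (Finset.mem_univ i)

theorem exists_UU (U : Matrix (Fin n) (Fin n) F) (h1 : ∀ i j : Fin n, j < i → U i j = 0)
    (h2 : ∀ i, U i i = 1) : ∃ u ∈ UU n F, (u : Matrix (Fin n) (Fin n) F) = U := by
  have hdet : U.det = 1 := by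
    rw [Matrix.det_of_isUpperTriangular (show U.BlockTriangular id from fun i j hij => h1 i j hij)]
    exact Finset.prod_eq_one (fun i _ => h2 i)
  exact ⟨⟨U, hdet⟩, ⟨h1, h2⟩, rfl⟩

end S2a

/-- [S2a] Bruhat decomposition in `SL_n`, with unitriangular factors -/
theorem bruhat_SL (g : Matrix.SpecialLinearGroup (Fin n) F) :
    ∃ u ∈ UU n F, ∃ m : Matrix.SpecialLinearGroup (Fin n) F, ∃ u' ∈ UU n F, ∃ σ : Equiv.Perm (Fin n),
      (∀ i j : Fin n, i ≠ σ j → (m : Matrix (Fin n) (Fin n) F) i j = 0) ∧ g = u * m * u' := by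
  obtain ⟨b, hb, b', hb', σ, hg⟩ := Stbg.bruhat (Matrix.SpecialLinearGroup.toGL g)
  have hgM : (g : Matrix (Fin n) (Fin n) F) = b.1 * (Stbg.wGL F σ).1 * b'.1 := by
    have := congrArg Units.val hg
    simpa using this
  have he : ∀ i, b.1 i i ≠ 0 := S2a.borel_diag_ne_zero hb
  have he' : ∀ i, b'.1 i i ≠ 0 := S2a.borel_diag_ne_zero hb'
  obtain ⟨u, hu, huM⟩ := S2a.exists_UU (b.1 * Matrix.diagonal (fun i => (b.1 i i)⁻¹))
    (by intro i j hij; rw [Matrix.mul_diagonal, S2a.borel_tri hb i j hij, zero_mul])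
    (by intro i; rw [Matrix.mul_diagonal]; exact mul_inv_cancel₀ (he i))
  obtain ⟨u', hu', hu'M⟩ := S2a.exists_UU (Matrix.diagonal (fun i => (b'.1 i i)⁻¹) * b'.1)
    (by intro i j hij; rw [Matrix.diagonal_mul, S2a.borel_tri hb' i j hij, mul_zero])
    (by intro i; rw [Matrix.diagonal_mul]; exact inv_mul_cancel₀ (he' i))
  obtain ⟨M, hM⟩ : ∃ M : Matrix (Fin n) (Fin n) F, M = Matrix.diagonal (fun i => b.1 i i) *
    (Stbg.wGL F σ).1 * Matrix.diagonal (fun i => b'.1 i i) := ⟨_, rfl⟩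
  have hprod : (g : Matrix (Fin n) (Fin n) F) =
      (u : Matrix (Fin n) (Fin n) F) * M * (u' : Matrix (Fin n) (Fin n) F) := by
    have h1 : Matrix.diagonal (fun i => (b.1 i i)⁻¹) * Matrix.diagonal (fun i => b.1 i i) = 1 := by
      rw [Matrix.diagonal_mul_diagonal, ← Matrix.diagonal_one]
      congr 1
      funext i
      exact inv_mul_cancel₀ (he i)
    have h2 : Matrix.diagonal (fun i => b'.1 i i) * Matrix.diagonal (fun i => (b'.1 i i)⁻¹) = 1 := by
      rw [Matrix.diagonal_mul_diagonal, ← Matrix.diagonal_one]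
      congr 1
      funext i
      exact mul_inv_cancel₀ (he' i)
    rw [hgM, huM, hu'M, hM]
    calc b.1 * (Stbg.wGL F σ).1 * b'.1
        = b.1 * (Matrix.diagonal (fun i => (b.1 i i)⁻¹) * Matrix.diagonal (fun i => b.1 i i)) *
          (Stbg.wGL F σ).1 *
          (Matrix.diagonal (fun i => b'.1 i i) * Matrix.diagonal (fun i => (b'.1 i i)⁻¹)) * b'.1 := by
          rw [h1, h2, mul_one, mul_one]
      _ = _ := by simp only [mul_assoc]
  have hdetM : M.det = 1 := by
    have := congrArg Matrix.det hprod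
    rw [g.2, Matrix.det_mul, Matrix.det_mul, u.2, u'.2, one_mul, mul_one] at this
    exact this.symm
  refine ⟨u, hu, ⟨M, hdetM⟩, u', hu', σ, ?_, Subtype.ext ?_⟩
  · intro i j hij
    show M i j = 0
    rw [hM, Matrix.mul_diagonal, Matrix.diagonal_mul, Stbg.wGL_apply, if_neg hij]
    simp
  · exact hprod

end Cfsg.Agent.Lib.Helper39.SLblk
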