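import Cfsg.Agent.Lib.Helper39.SLblk.Base
import Cfsg.Agent.Lib.Helper5.LinearCard

set_option autoImplicit false

namespace Cfsg.Agent.Lib.Helper39.SLblk

open Matrix

variable {n : ℕ} {F : Type*} [Field F]

namespace Z

lemma p_dvd_card [Fintype F] (p : ℕ) [Fact p.Prime] [CharP F p] : p ∣ Fintype.card F := by
  obtain ⟨k, -, hk⟩ := FiniteField.card F p
  rw [hk]
  exact dvd_pow_self p k.ne_zero

/-- the root subgroup -/
def xhom (i j : Fin n) (hij : i ≠ j) : Multiplicative F →* Matrix.SpecialLinearGroup (Fin n) F where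
  toFun a := ⟨Matrix.transvection i j (Multiplicative.toAdd a), Matrix.det_transvection_of_ne i j hij _⟩
  map_one' := by
    apply Subtype.ext
    show Matrix.transvection i j (0 : F) = 1
    exact Matrix.transvection_zero (R := F) i j
  map_mul' a b := by
    apply Subtype.ext
    show Matrix.transvection i j (Multiplicative.toAdd a + Multiplicative.toAdd b) =
      Matrix.transvection i j (Multiplicative.toAdd a) * Matrix.transvection i j (Multiplicative.toAdd b)
    rw [Matrix.transvection_mul_transvection_same i j hij]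

lemma xhom_injective (i j : Fin n) (hij : i ≠ j) : Function.Injective (xhom (F := F) i j hij) := by
  intro a b h
  have h1 : Matrix.transvection i j (Multiplicative.toAdd a) i j =
      Matrix.transvection i j (Multiplicative.toAdd b) i j :=
    congrArg (fun g : Matrix.SpecialLinearGroup (Fin n) F => (g : Matrix (Fin n) (Fin n) F) i j) h
  simpa [Matrix.transvection, Matrix.one_apply_ne hij] using h1

end Z

/-- [Z1] -/
theorem center_pregular [Fintype F] (p : ℕ) [Fact p.Prime] [CharP F p] :
    ∀ z ∈ Subgroup.center (Matrix.SpecialLinearGroup (Fin n) F), ¬ p ∣ orderOf z := by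
  intro z hz hp
  have hp1 : p ≠ 1 := (Fact.out : p.Prime).ne_one
  rcases Nat.eq_zero_or_pos n with rfl | hn
  · have : z = 1 := Subsingleton.elim _ _
    rw [this, orderOf_one] at hp
    exact hp1 (Nat.dvd_one.1 hp)
  · have : Nonempty (Fin n) := ⟨⟨0, hn⟩⟩
    have h1 : orderOf z ∣ Nat.card (Subgroup.center (Matrix.SpecialLinearGroup (Fin n) F)) := by
      have := orderOf_dvd_natCard (⟨z, hz⟩ : Subgroup.center (Matrix.SpecialLinearGroup (Fin n) F))
      rwa [Subgroup.orderOf_mk] at this
    rw [Cfsg.Agent.Lib.Helper5.card_center_SL] at h1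
    have h2 : p ∣ Fintype.card F - 1 := (hp.trans h1).trans (Nat.gcd_dvd_left _ _)
    have h3 : p ∣ Fintype.card F := Z.p_dvd_card p
    have h4 : 0 < Fintype.card F := Fintype.card_pos
    have h5 : p ∣ 1 := by
      have := (Nat.dvd_sub h3 h2)
      rwa [Nat.sub_sub_self h4] at this
    exact hp1 (Nat.dvd_one.1 h5)

/-- [Z2] -/
theorem p_dvd_card_SL [Fintype F] (p : ℕ) [Fact p.Prime] [CharP F p] (hn : 2 ≤ n) :
    p ∣ Nat.card (Matrix.SpecialLinearGroup (Fin n) F) := by
  have hij : (⟨0, by omega⟩ : Fin n) ≠ ⟨1, by omega⟩ := by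
    intro h
    simpa using congrArg Fin.val h
  have h1 := Subgroup.card_dvd_of_injective _ (Z.xhom_injective (F := F) _ _ hij)
  refine dvd_trans ?_ h1
  have h2 : Nat.card (Multiplicative F) = Fintype.card F := by
    rw [Nat.card_eq_fintype_card]
    exact Fintype.card_multiplicative F
  rw [h2]
  exact Z.p_dvd_card p

/-- [Z3] -/
theorem card_center_SL_zmod (p : ℕ) [Fact p.Prime] (hn : 2 ≤ n) :
    Nat.card (Subgroup.center (Matrix.SpecialLinearGroup (Fin n) (ZMod p))) = Nat.gcd n (p - 1) := by
  have : Nonempty (Fin n) := ⟨⟨0, by omega⟩⟩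
  rw [Cfsg.Agent.Lib.Helper5.card_center_SL, ZMod.card, Fintype.card_fin, Nat.gcd_comm]

end Cfsg.Agent.Lib.Helper39.SLblk
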